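import Groth.Agent.Dual.H329.EHom
import Mathlib.Algebra.Homology.HomotopyCategory.HomComplex
import Mathlib.CategoryTheory.Preadditive.Injective.Basic

/-!
# Cochains out of `E_V A` as a sheaf in `V`

`EC V : CochainComplex X.Modules ℤ ⥤ CochainComplex X.Modules ℤ` is `TF V` applied termwise.
`CC A M n V` is the group of cochains of degree `n` from `E_V A` to `M`, with restriction maps `rs`.
If `M` has injective terms, the restriction maps are surjective.

* `exists_δ_eq`: a cochain which is locally a coboundary is a coboundary if all cocycles of one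
  degree less on small opens are coboundaries.
* `exists_glue_cocycle`: compatible classes of cocycles of degree `n` glue, if cocycles of
  degree `n - 1` on small opens are coboundaries.
-/

set_option autoImplicit false

universe u

open CategoryTheory CategoryTheory.Limits AlgebraicGeometry Opposite TopologicalSpace

namespace Groth.Agent.Dual.H329.CochSheaf

open Groth.Agent.PerfC.ExtZero Groth.Agent.Dual.H329.OSheaf Groth.Agent.Dual.H329.EHom
open CochainComplex.HomComplex

variable {X : Scheme.{u}}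

instance additive_TF (V : X.Opens) : (TF V).Additive where
  map_add {A B f g} := by
    rw [← cancel_mono (inc V B), Preadditive.add_comp, inc_naturality, inc_naturality,
      inc_naturality, Preadditive.comp_add]

/-- `TF V` on complexes. -/
noncomputable abbrev EC (V : X.Opens) :
    CochainComplex X.Modules ℤ ⥤ CochainComplex X.Modules ℤ :=
  (TF V).mapHomologicalComplex (ComplexShape.up ℤ)

/-- The inclusion `E_{V'} ⟶ E_V`. -/
noncomputable def cC {V' V : X.Opens} (h : V' ≤ V) : EC V' ⟶ EC V :=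
  NatTrans.mapHomologicalComplex (cN h) (ComplexShape.up ℤ)

@[simp] lemma cC_app_f {V' V : X.Opens} (h : V' ≤ V) (A : CochainComplex X.Modules ℤ) (p : ℤ) :
    ((cC h).app A).f p = c h (A.X p) := rfl

/-- The inclusion `E_V A ⟶ A`. -/
noncomputable def incC (V : X.Opens) (A : CochainComplex X.Modules ℤ) : (EC V).obj A ⟶ A where
  f p := inc V (A.X p)
  comm' i j _ := (inc_naturality V (A.d i j)).symm

@[simp] lemma incC_f (V : X.Opens) (A : CochainComplex X.Modules ℤ) (p : ℤ) :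
    (incC V A).f p = inc V (A.X p) := rfl

@[reassoc]
lemma incC_naturality (V : X.Opens) {A B : CochainComplex X.Modules ℤ} (f : A ⟶ B) :
    (EC V).map f ≫ incC V B = incC V A ≫ f :=
  HomologicalComplex.hom_ext _ _ fun p => inc_naturality V (f.f p)

@[reassoc (attr := simp)]
lemma cC_incC {V' V : X.Opens} (h : V' ≤ V) (A : CochainComplex X.Modules ℤ) :
    (cC h).app A ≫ incC V A = incC V' A :=
  HomologicalComplex.hom_ext _ _ fun p => c_incl h (A.X p)

@[reassoc (attr := simp)]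
lemma cC_comp {V'' V' V : X.Opens} (h' : V'' ≤ V') (h : V' ≤ V)
    (A : CochainComplex X.Modules ℤ) :
    (cC h').app A ≫ (cC h).app A = (cC (h'.trans h)).app A :=
  HomologicalComplex.hom_ext _ _ fun p => c_comp h' h (A.X p)

@[simp]
lemma cC_self {V : X.Opens} (h : V ≤ V) (A : CochainComplex X.Modules ℤ) :
    (cC h).app A = 𝟙 _ :=
  HomologicalComplex.hom_ext _ _ fun p => c_self h (A.X p)

variable (A M : CochainComplex X.Modules ℤ)

/-- Cochains of degree `n` over `V`. -/
abbrev CC (n : ℤ) (V : X.Opens) : Type u := Cochain ((EC V).obj A) M n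

variable {A M}

/-- Restriction of cochains. -/
noncomputable def rs {n : ℤ} {V' V : X.Opens} (h : V' ≤ V) (z : CC A M n V) : CC A M n V' :=
  (Cochain.ofHom ((cC h).app A)).comp z (zero_add n)

lemma rs_v {n : ℤ} {V' V : X.Opens} (h : V' ≤ V) (z : CC A M n V) (p q : ℤ) (hpq : p + n = q) :
    (rs h z).v p q hpq = c h (A.X p) ≫ z.v p q hpq := by
  unfold rs
  rw [Cochain.zero_cochain_comp_v, Cochain.ofHom_v]
  rfl

@[simp] lemma rs_add {n : ℤ} {V' V : X.Opens} (h : V' ≤ V) (z z' : CC A M n V) :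
    rs h (z + z') = rs h z + rs h z' := Cochain.comp_add _ _ _ _

@[simp] lemma rs_sub {n : ℤ} {V' V : X.Opens} (h : V' ≤ V) (z z' : CC A M n V) :
    rs h (z - z') = rs h z - rs h z' := Cochain.comp_sub _ _ _ _

@[simp] lemma rs_zero {n : ℤ} {V' V : X.Opens} (h : V' ≤ V) :
    rs h (0 : CC A M n V) = 0 := Cochain.comp_zero _ _

@[simp] lemma rs_neg {n : ℤ} {V' V : X.Opens} (h : V' ≤ V) (z : CC A M n V) :
    rs h (-z) = -rs h z := Cochain.comp_neg _ _ _

lemma rs_rs {n : ℤ} {V'' V' V : X.Opens} (h : V' ≤ V) (h' : V'' ≤ V') (z : CC A M n V) :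
    rs h' (rs h z) = rs (h'.trans h) z :=
  Cochain.ext _ _ fun p q hpq => by rw [rs_v, rs_v, rs_v, c_comp_assoc]

lemma rs_self {n : ℤ} {V : X.Opens} (h : V ≤ V) (z : CC A M n V) : rs h z = z :=
  Cochain.ext _ _ fun p q hpq => by
    rw [rs_v, c_self]
    exact Category.id_comp _

lemma δ_rs {n : ℤ} (m : ℤ) {V' V : X.Opens} (h : V' ≤ V) (z : CC A M n V) :
    δ n m (rs h z) = rs h (δ n m z) := δ_ofHom_comp _ _ _

/-- Cochains with values in a complex with injective terms extend. -/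
lemma exists_rs_eq (hM : ∀ q, Injective (M.X q)) {n : ℤ} {V' V : X.Opens} (h : V' ≤ V)
    (z : CC A M n V') : ∃ z' : CC A M n V, rs h z' = z := by
  have key : ∀ T : Triplet n, ∃ g : (TF V).obj (A.X T.p) ⟶ M.X T.q,
      c h (A.X T.p) ≫ g = z.v T.p T.q T.hpq := fun T => by
    obtain ⟨g, hg⟩ := @Injective.factors _ _ _ (hM T.q) _ _ (z.v T.p T.q T.hpq)
      (c h (A.X T.p)) (mono_c h (A.X T.p))
    exact ⟨g, hg⟩
  choose g hg using key
  refine ⟨fun T => g T, Cochain.ext _ _ fun p q hpq => ?_⟩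
  rw [rs_v]
  exact hg ⟨p, q, hpq⟩

variable (A M)

/-- The sheaf of cochains of degree `n`. -/
noncomputable def cSheaf (n : ℤ) : OSheaf X where
  obj V := CC A M n V
  res h z := rs h z
  res_self h z := rs_self h z
  res_res h h' z := rs_rs h h' z
  sep W z z' h := Cochain.ext _ _ fun p q hpq => by
    refine hom_sep W _ _ fun i => ?_
    rw [← rs_v, ← rs_v, h]
  glue W z h := by
    have key : ∀ T : Triplet n, ∃ g : (TF (⨆ i, W i)).obj (A.X T.p) ⟶ M.X T.q,
        ∀ i, c (le_iSup W i) (A.X T.p) ≫ g = (z i).v T.p T.q T.hpq := by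
      intro T
      refine hom_glue W (fun i => (z i).v T.p T.q T.hpq) fun i j => ?_
      rw [← rs_v, ← rs_v, h]
    choose g hg using key
    refine ⟨fun T => g T, fun i => Cochain.ext _ _ fun p q hpq => ?_⟩
    rw [rs_v]
    exact hg ⟨p, q, hpq⟩ i

@[simp] lemma cSheaf_res {n : ℤ} {V' V : X.Opens} (h : V' ≤ V) (z : CC A M n V) :
    (cSheaf A M n).res h z = rs h z := rfl

variable {A M}

lemma CC_ext {n : ℤ} {ι : Type u} (W : ι → X.Opens) {V : X.Opens} (hle : ∀ i, W i ≤ V)
    (hV : V ≤ ⨆ i, W i) (z z' : CC A M n V) (h : ∀ i, rs (hle i) z = rs (hle i) z') : z = z' :=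
  (cSheaf A M n).sep' W hle hV z z' h

/-- Local coboundaries are coboundaries. -/
theorem exists_δ_eq (hM : ∀ q, Injective (M.X q)) (l n m : ℤ)
    {ι : Type u} (W : ι → X.Opens) {V : X.Opens} (hle : ∀ i, W i ≤ V) (hV : V ≤ ⨆ i, W i)
    (s : CC A M m V) (hs : ∀ i, ∃ t : CC A M n (W i), δ n m t = rs (hle i) s)
    (hex : ∀ i (U : X.Opens) (_ : U ≤ W i) (t : CC A M n U), δ n m t = 0 →
      ∃ v : CC A M l U, δ l n v = t) :
    ∃ t : CC A M n V, δ n m t = s := by
  -- solutions as a sheaf of sets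
  let G : OSheaf X :=
    { obj := fun U => {t : CC A M n U // rs (inf_le_left : U ⊓ V ≤ U) (δ n m t) =
        rs (inf_le_right : U ⊓ V ≤ V) s}
      res := fun {U' U} h t => ⟨rs h t.1, by
        have e := congr_arg (rs (inf_le_inf_right V h)) t.2
        rw [rs_rs, rs_rs] at e
        rw [δ_rs, rs_rs]
        exact e⟩
      res_self := fun h t => Subtype.ext (rs_self h t.1)
      res_res := fun h h' t => Subtype.ext (rs_rs h h' t.1)
      sep := fun U t t' h => Subtype.ext ((cSheaf A M n).sep U t.1 t'.1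
        fun i => congr_arg Subtype.val (h i))
      glue := fun {κ} U t h => by
        obtain ⟨r, hr⟩ := (cSheaf A M n).glue U (fun i => (t i).1)
          fun i j => congr_arg Subtype.val (h i j)
        refine ⟨⟨r, ?_⟩, fun i => Subtype.ext (hr i)⟩
        refine CC_ext (fun i => U i ⊓ V) (fun i => inf_le_inf_right V (le_iSup U i))
          (iSup_inf_eq U V).le _ _ fun i => ?_
        have e := (t i).2
        rw [← hr i, cSheaf_res, δ_rs, rs_rs] at e
        rw [rs_rs, rs_rs]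
        exact e }
  obtain ⟨⟨t, ht⟩⟩ := G.nonempty_obj (Set.range W) (by
    rintro _ ⟨i, rfl⟩ U' h ⟨t', ht'⟩
    obtain ⟨t₁, ht₁⟩ := hs i
    have hUV : U' ≤ V := h.trans (hle i)
    have e1 : δ n m t' = rs hUV s := by
      have e := congr_arg (rs (le_inf le_rfl hUV : U' ≤ U' ⊓ V)) ht'
      rwa [rs_rs, rs_rs, rs_self] at e
    obtain ⟨v, hv⟩ := hex i U' h (rs h t₁ - t') (by
      rw [δ_sub, δ_rs, ht₁, rs_rs, e1, sub_self])
    obtain ⟨v', hv'⟩ := exists_rs_eq hM h v
    refine ⟨⟨t₁ - δ l n v', ?_⟩, Subtype.ext ?_⟩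
    · rw [δ_sub, δ_δ, sub_zero, ht₁, rs_rs]
    · change rs h (t₁ - δ l n v') = t'
      rw [rs_sub, ← δ_rs, hv', hv, sub_sub_cancel])
  have hVW : V ≤ sSup (Set.range W) := hV
  refine ⟨rs hVW t, ?_⟩
  have e := congr_arg (rs (le_inf hVW le_rfl : V ≤ sSup (Set.range W) ⊓ V)) ht
  rw [rs_rs, rs_rs, rs_self] at e
  rw [δ_rs, e]

/-- Gluing classes of cocycles. -/
theorem exists_glue_cocycle (hM : ∀ q, Injective (M.X q)) (l k n m : ℤ)
    {ι : Type u} (W : ι → X.Opens) (f : ∀ i, CC A M n (W i)) (hf : ∀ i, δ n m (f i) = 0)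
    (hfc : ∀ i j, ∃ t : CC A M k (W i ⊓ W j), δ k n t =
      rs (inf_le_left : W i ⊓ W j ≤ W i) (f i) - rs inf_le_right (f j))
    (hex : ∀ i (U : X.Opens) (_ : U ≤ W i) (t : CC A M k U), δ k n t = 0 →
      ∃ v : CC A M l U, δ l k v = t) :
    ∃ z : CC A M n (⨆ i, W i), δ n m z = 0 ∧
      ∀ i, ∃ t : CC A M k (W i), δ k n t = rs (le_iSup W i) z - f i := by
  let G : OSheaf X :=
    { obj := fun U => {z : CC A M n U // δ n m z = 0 ∧ ∀ i, ∃ t : CC A M k (U ⊓ W i),
        δ k n t = rs (inf_le_left : U ⊓ W i ≤ U) z - rs inf_le_right (f i)}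
      res := fun {U' U} h z => ⟨rs h z.1, by rw [δ_rs, z.2.1, rs_zero], fun i => by
        obtain ⟨t, ht⟩ := z.2.2 i
        refine ⟨rs (inf_le_inf_right (W i) h) t, ?_⟩
        rw [δ_rs, ht, rs_sub, rs_rs, rs_rs, rs_rs]⟩
      res_self := fun h z => Subtype.ext (rs_self h z.1)
      res_res := fun h h' z => Subtype.ext (rs_rs h h' z.1)
      sep := fun U z z' h => Subtype.ext ((cSheaf A M n).sep U z.1 z'.1
        fun i => congr_arg Subtype.val (h i))
      glue := fun {κ} U z h => by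
        obtain ⟨r, hr⟩ := (cSheaf A M n).glue U (fun i => (z i).1)
          fun i j => congr_arg Subtype.val (h i j)
        refine ⟨⟨r, ?_, fun i => ?_⟩, fun i => Subtype.ext (hr i)⟩
        · refine CC_ext U (le_iSup U) le_rfl _ _ fun j => ?_
          rw [← δ_rs, rs_zero]
          refine Eq.trans ?_ (z j).2.1
          exact congr_arg _ (hr j)
        · refine exists_δ_eq hM l k n (fun j => U j ⊓ W i)
            (fun j => inf_le_inf_right (W i) (le_iSup U j)) (iSup_inf_eq U (W i)).le _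
            (fun j => ?_) (fun j U' h' t ht => hex i U' (h'.trans inf_le_right) t ht)
          obtain ⟨t, ht⟩ := (z j).2.2 i
          refine ⟨t, ?_⟩
          rw [ht, ← hr j, cSheaf_res, rs_sub, rs_rs, rs_rs, rs_rs] }
  obtain ⟨⟨z, hz, hz'⟩⟩ := G.nonempty_obj (Set.range W) (by
    rintro _ ⟨i, rfl⟩ U' h ⟨z', hz1, hz2⟩
    obtain ⟨t, ht⟩ := hz2 i
    have e1 : z' = rs h (f i) + δ k n (rs (le_inf le_rfl h : U' ≤ U' ⊓ W i) t) := by
      rw [δ_rs, ht, rs_sub, rs_rs, rs_rs, rs_self, add_sub_cancel]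
    obtain ⟨τ, hτ⟩ := exists_rs_eq hM h (rs (le_inf le_rfl h : U' ≤ U' ⊓ W i) t)
    refine ⟨⟨f i + δ k n τ, ?_, fun j => ?_⟩, Subtype.ext ?_⟩
    · rw [δ_add, hf, δ_δ, add_zero]
    · obtain ⟨v, hv⟩ := hfc i j
      refine ⟨v + rs inf_le_left τ, ?_⟩
      rw [δ_add, hv, δ_rs, rs_add, add_sub_right_comm]
    · change rs h (f i + δ k n τ) = z'
      rw [rs_add, ← δ_rs, hτ, e1])
  change CC A M n (⨆ i, W i) at z
  have hz'' : ∀ i, ∃ t : CC A M k ((⨆ i, W i) ⊓ W i),
      δ k n t = rs (inf_le_left : (⨆ i, W i) ⊓ W i ≤ _) z - rs inf_le_right (f i) := hz'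
  refine ⟨z, hz, fun i => ?_⟩
  obtain ⟨t, ht⟩ := hz'' i
  refine ⟨rs (le_inf (le_iSup W i) le_rfl : W i ≤ (⨆ i, W i) ⊓ W i) t, ?_⟩
  rw [δ_rs, ht, rs_sub, rs_rs, rs_rs, rs_self]

end Groth.Agent.Dual.H329.CochSheaf
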