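import Mathlib.Topology.Sets.Opens
import Mathlib.Order.Zorn

/-!
# Sheaves of sets on the opens of a space, and Zorn's lemma

`OSheaf α`: an elementary notion of sheaf of sets on the open subsets of `α`.
`OSheaf.exists_extend`: if `F(U) → F(U')` is surjective for all `U' ≤ U` with `U ∈ B`, then every
section of `F` over an open `W₀ ≤ ⋃ B` extends to `⋃ B`.
-/

set_option autoImplicit false

universe u

open TopologicalSpace

namespace Groth.Agent.Dual.H329.OSheaf

/-- Sheaves of sets on the opens of a topological space. -/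
structure OSheaf (α : Type u) [TopologicalSpace α] where
  /-- sections -/
  obj : Opens α → Type u
  /-- restriction -/
  res : ∀ {W' W : Opens α}, W' ≤ W → obj W → obj W'
  res_self : ∀ {W : Opens α} (h : W ≤ W) (s : obj W), res h s = s
  res_res : ∀ {W'' W' W : Opens α} (h : W' ≤ W) (h' : W'' ≤ W') (s : obj W),
    res h' (res h s) = res (h'.trans h) s
  sep : ∀ {ι : Type u} (W : ι → Opens α) (s t : obj (⨆ i, W i)),
    (∀ i, res (le_iSup W i) s = res (le_iSup W i) t) → s = t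
  glue : ∀ {ι : Type u} (W : ι → Opens α) (s : ∀ i, obj (W i)),
    (∀ i j, res (inf_le_left : W i ⊓ W j ≤ W i) (s i) = res inf_le_right (s j)) →
      ∃ t : obj (⨆ i, W i), ∀ i, res (le_iSup W i) t = s i

namespace OSheaf

variable {α : Type u} [TopologicalSpace α] (F : OSheaf α)

/-- Gluing over an open equal to the union. -/
lemma glue' {ι : Type u} (W : ι → Opens α) {V : Opens α} (hle : ∀ i, W i ≤ V) (hV : V ≤ ⨆ i, W i)
    (s : ∀ i, F.obj (W i))
    (hs : ∀ i j, F.res (inf_le_left : W i ⊓ W j ≤ W i) (s i) = F.res inf_le_right (s j)) :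
    ∃ t : F.obj V, ∀ i, F.res (hle i) t = s i := by
  obtain ⟨t, ht⟩ := F.glue W s hs
  exact ⟨F.res hV t, fun i => by rw [F.res_res, ht]⟩

lemma sep' {ι : Type u} (W : ι → Opens α) {V : Opens α} (hle : ∀ i, W i ≤ V) (hV : V ≤ ⨆ i, W i)
    (s t : F.obj V) (h : ∀ i, F.res (hle i) s = F.res (hle i) t) : s = t := by
  have hle' : (⨆ i, W i) ≤ V := iSup_le hle
  have h1 : F.res hle' s = F.res hle' t := F.sep W _ _ fun i => by rw [F.res_res, F.res_res, h]
  have h2 := congr_arg (F.res hV) h1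
  rwa [F.res_res, F.res_res, F.res_self, F.res_self] at h2

/-- Gluing two sections. -/
lemma glue_two {U V : Opens α} (s : F.obj U) (t : F.obj V)
    (h : F.res (inf_le_left : U ⊓ V ≤ U) s = F.res inf_le_right t) :
    ∃ r : F.obj (U ⊔ V), F.res le_sup_left r = s ∧ F.res le_sup_right r = t := by
  let W : ULift.{u} Bool → Opens α := fun b => if b.down then U else V
  have hW1 : W ⟨true⟩ = U := rfl
  have hW2 : W ⟨false⟩ = V := rfl
  have hle : ∀ b, W b ≤ U ⊔ V := by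
    rintro ⟨_ | _⟩
    · exact le_sup_right
    · exact le_sup_left
  have hV : U ⊔ V ≤ ⨆ b, W b := sup_le (le_iSup W ⟨true⟩) (le_iSup W ⟨false⟩)
  let f : ∀ b, F.obj (W b) := fun b => match b with
    | ⟨true⟩ => s
    | ⟨false⟩ => t
  obtain ⟨r, hr⟩ := F.glue' W hle hV f (by
    rintro ⟨_ | _⟩ ⟨_ | _⟩
    · rfl
    · have h' : ∀ (h1 : V ⊓ U ≤ V) (h2 : V ⊓ U ≤ U), F.res h1 t = F.res h2 s := by
        intro h1 h2
        have e := congr_arg (F.res (inf_comm V U).le) h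
        rw [F.res_res, F.res_res] at e
        exact e.symm
      exact h' _ _
    · exact h
    · rfl)
  exact ⟨r, hr ⟨true⟩, hr ⟨false⟩⟩

/-- Zorn's lemma for extension of sections. -/
theorem exists_extend (B : Set (Opens α))
    (hB : ∀ U ∈ B, ∀ (U' : Opens α) (h : U' ≤ U) (s : F.obj U'), ∃ t : F.obj U, F.res h t = s)
    (W₀ : Opens α) (hW₀ : W₀ ≤ sSup B) (s₀ : F.obj W₀) :
    ∃ t : F.obj (sSup B), F.res hW₀ t = s₀ := by
  classical
  -- the set of partial extensions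
  let P := {p : (Σ W : Opens α, F.obj W) // ∃ h : W₀ ≤ p.1, p.1 ≤ sSup B ∧ F.res h p.2 = s₀}
  let r : P → P → Prop := fun p q => ∃ h : p.1.1 ≤ q.1.1, F.res h q.1.2 = p.1.2
  have hrefl : ∀ p, r p p := fun p => ⟨le_rfl, F.res_self _ _⟩
  have htrans : ∀ {p q s}, r p q → r q s → r p s := by
    rintro p q s ⟨h, e⟩ ⟨h', e'⟩
    exact ⟨h.trans h', by rw [← F.res_res h' h, e', e]⟩
  have p₀ : P := ⟨⟨W₀, s₀⟩, le_rfl, hW₀, F.res_self _ _⟩
  obtain ⟨m, hm⟩ : ∃ m : P, ∀ a, r m a → r a m := by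
    refine exists_maximal_of_chains_bounded (r := r) (fun c hc => ?_) (fun {a b c} => htrans)
    by_cases hne : c.Nonempty
    · obtain ⟨c₀, hc₀⟩ := hne
      let W : c → Opens α := fun p => p.1.1.1
      obtain ⟨t, ht⟩ := F.glue W (fun p => p.1.1.2) (by
        intro p q
        rcases eq_or_ne p q with rfl | hpq
        · rfl
        · rcases hc p.2 q.2 (fun h => hpq (Subtype.ext h)) with ⟨h, e⟩ | ⟨h, e⟩
          · change F.res _ p.1.1.2 = F.res _ q.1.1.2
            rw [← e, F.res_res]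
          · change F.res _ p.1.1.2 = F.res _ q.1.1.2
            rw [← e, F.res_res])
      obtain ⟨h₀, h₁, e₀⟩ := c₀.2
      have hW : W₀ ≤ ⨆ p, W p := h₀.trans (le_iSup W ⟨c₀, hc₀⟩)
      refine ⟨⟨⟨⨆ p, W p, t⟩, hW, iSup_le fun p => ?_, ?_⟩, fun a ha => ?_⟩
      · obtain ⟨_, h, _⟩ := p.1.2
        exact h
      · have e := ht ⟨c₀, hc₀⟩
        change F.res hW t = s₀
        rw [← e₀, ← F.res_res (le_iSup W ⟨c₀, hc₀⟩) h₀]
        exact congr_arg _ e
      · exact ⟨le_iSup W ⟨a, ha⟩, ht ⟨a, ha⟩⟩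
    · refine ⟨p₀, fun a ha => (hne ⟨a, ha⟩).elim⟩
  obtain ⟨⟨⟨W, t⟩, hW, hWB, ht⟩, hmax⟩ : ∃ m' : P, m' = m := ⟨m, rfl⟩
  subst hmax
  dsimp only at hW hWB ht
  have hBW : sSup B ≤ W := by
    refine sSup_le fun U hU => ?_
    obtain ⟨tU, htU⟩ := hB U hU (W ⊓ U) inf_le_right (F.res inf_le_left t)
    obtain ⟨q, hq1, hq2⟩ := F.glue_two t tU htU.symm
    obtain ⟨h, -⟩ := hm ⟨⟨W ⊔ U, q⟩, hW.trans le_sup_left, sup_le hWB (le_sSup hU), by
      dsimp only
      rw [← F.res_res (le_sup_left : W ≤ W ⊔ U) hW, hq1, ht]⟩ ⟨le_sup_left, hq1⟩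
    exact le_sup_right.trans h
  refine ⟨F.res hBW t, ?_⟩
  rw [F.res_res, ht]

/-- Existence of sections. -/
theorem nonempty_obj (B : Set (Opens α))
    (hB : ∀ U ∈ B, ∀ (U' : Opens α) (h : U' ≤ U) (s : F.obj U'), ∃ t : F.obj U, F.res h t = s) :
    Nonempty (F.obj (sSup B)) := by
  obtain ⟨t₀, -⟩ := F.glue (ι := PEmpty) (fun i => i.elim) (fun i => i.elim) (fun i => i.elim)
  have h : (⨆ i : PEmpty, (PEmpty.elim i : Opens α)) ≤ sSup B := iSup_le fun i => i.elim
  obtain ⟨t, -⟩ := F.exists_extend B hB _ h t₀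
  exact ⟨t⟩

end OSheaf

end Groth.Agent.Dual.H329.OSheaf
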