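import Groth.Agent.PerfC.ExtZero2
import Groth.Agent.FormalB.GlueHom
import Groth.Agent.Dual.H329.OSheaf

/-!
# Morphisms out of `TF V A` (extension by zero of `A|_V`) as a sheaf in `V`

* `cN h : TF V' ⟶ TF V` for `V' ≤ V`.
* `hSheaf A M : OSheaf X`, `V ↦ (TF V A ⟶ M)`.
-/

set_option autoImplicit false

universe u

open CategoryTheory CategoryTheory.Limits AlgebraicGeometry Opposite TopologicalSpace

namespace Groth.Agent.Dual.H329.EHom

open Groth.Agent.PerfC.ExtZero Groth.Agent.FormalB.GlueHom Groth.Agent.Dual.H329.OSheaf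

variable {X : Scheme.{u}}

lemma locZero_mono {V' V : X.Opens} (h : V' ≤ V) {A : X.Modules} {W : X.Opens} {s : Γ(A, W)}
    (hs : LocZero V' A W s) : LocZero V A W s := fun x hx hxV => hs x hx (fun h' => hxV (h h'))

lemma locZero_of_le {V : X.Opens} {A : X.Modules} {W : X.Opens} (h : W ≤ V) (s : Γ(A, W)) :
    LocZero V A W s := fun _ hx hxV => (hxV (h hx)).elim

/-- The inclusion `TF V A ⟶ A` (typed with the functor `TF V`). -/
noncomputable def inc (V : X.Opens) (A : X.Modules) : (TF V).obj A ⟶ A := incl V A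

instance mono_inc (V : X.Opens) (A : X.Modules) : Mono (inc V A) := mono_incl V A

@[reassoc]
lemma inc_naturality (V : X.Opens) {A B : X.Modules} (f : A ⟶ B) :
    (TF V).map f ≫ inc V B = inc V A ≫ f := TF_map_incl V f

/-- The inclusion `TF V' A ⟶ TF V A`. -/
noncomputable def c {V' V : X.Opens} (h : V' ≤ V) (A : X.Modules) :
    (TF V').obj A ⟶ (TF V).obj A :=
  lift (incl V' A) (fun W s => locZero_mono h (incl_app_mem V' A W s))

@[reassoc (attr := simp)]
lemma c_incl {V' V : X.Opens} (h : V' ≤ V) (A : X.Modules) : c h A ≫ inc V A = inc V' A :=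
  lift_incl _ _

@[reassoc]
lemma c_naturality {V' V : X.Opens} (h : V' ≤ V) {A B : X.Modules} (f : A ⟶ B) :
    (TF V').map f ≫ c h B = c h A ≫ (TF V).map f := by
  rw [← cancel_mono (inc V B), Category.assoc, Category.assoc, c_incl, inc_naturality,
    inc_naturality, c_incl_assoc]

/-- The inclusion `TF V' ⟶ TF V`. -/
noncomputable def cN {V' V : X.Opens} (h : V' ≤ V) : TF V' ⟶ TF V where
  app A := c h A
  naturality _ _ f := c_naturality h f

@[simp] lemma cN_app {V' V : X.Opens} (h : V' ≤ V) (A : X.Modules) : (cN h).app A = c h A := rfl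

@[reassoc (attr := simp)]
lemma c_comp {V'' V' V : X.Opens} (h' : V'' ≤ V') (h : V' ≤ V) (A : X.Modules) :
    c h' A ≫ c h A = c (h'.trans h) A := by
  rw [← cancel_mono (inc V A), Category.assoc, c_incl, c_incl, c_incl]

@[simp]
lemma c_self {V : X.Opens} (h : V ≤ V) (A : X.Modules) : c h A = 𝟙 _ := by
  rw [← cancel_mono (inc V A), c_incl, Category.id_comp]

instance mono_c {V' V : X.Opens} (h : V' ≤ V) (A : X.Modules) : Mono (c h A) := by
  have : Mono (c h A ≫ inc V A) := by rw [c_incl]; infer_instance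
  exact mono_of_mono _ (inc V A)

lemma inc_app_injective (V : X.Opens) (A : X.Modules) (W : X.Opens) :
    Function.Injective ((inc V A).app W) := incl_app_injective V A W

lemma c_app_injective {V' V : X.Opens} (h : V' ≤ V) (A : X.Modules) (W : X.Opens) :
    Function.Injective ((c h A).app W) := by
  intro s t hst
  apply inc_app_injective V' A W
  rw [← c_incl h A]
  exact congr_arg ((inc V A).app W) hst

/-- Over `W ≤ V'` every section comes from `TF V' A`. -/
lemma exists_c_app {V' V : X.Opens} (h : V' ≤ V) (A : X.Modules) {W : X.Opens} (hW : W ≤ V')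
    (s : Γ((TF V).obj A, W)) : ∃ t : Γ((TF V').obj A, W), (c h A).app W t = s := by
  obtain ⟨t, ht⟩ := exists_incl_app V' (locZero_of_le hW ((inc V A).app W s))
  refine ⟨t, inc_app_injective V A W ?_⟩
  refine Eq.trans ?_ ht
  change _ = (inc V' A).app W t
  rw [← c_incl h A]
  rfl

/-- A section of `TF V' A` and one of `TF V'' A` with the same image come from `TF (V' ⊓ V'') A`,
over an open contained in both. -/
lemma c_app_eq {V' V : X.Opens} (h : V' ≤ V) {A : X.Modules} {W : X.Opens}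
    (s : Γ((TF V').obj A, W)) : (inc V A).app W ((c h A).app W s) = (inc V' A).app W s := by
  rw [← c_incl h A]
  rfl

section Ext

variable {A M : X.Modules} {ι : Type u} (W : ι → X.Opens)

lemma hom_sep (f g : (TF (⨆ i, W i)).obj A ⟶ M)
    (h : ∀ i, c (le_iSup W i) A ≫ f = c (le_iSup W i) A ≫ g) : f = g := by
  apply Scheme.Modules.hom_ext
  intro V
  ext s
  refine eq_of_local M fun x hx => ?_
  by_cases hxW : x ∈ ⨆ i, W i
  · obtain ⟨i, hi⟩ := Opens.mem_iSup.1 hxW
    refine ⟨V ⊓ W i, inf_le_left, ⟨hx, hi⟩, ?_⟩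
    rw [← app_res, ← app_res]
    obtain ⟨t, ht⟩ := exists_c_app (le_iSup W i) A (W := V ⊓ W i) inf_le_right
      (res ((TF (⨆ i, W i)).obj A) inf_le_left s)
    rw [← ht]
    exact congr($(congr_arg (fun z : (TF (W i)).obj A ⟶ M => z.app (V ⊓ W i)) (h i)) t)
  · obtain ⟨V', hV', hx', e⟩ := suppIn_T (⨆ i, W i) A V s x hx hxW
    refine ⟨V', hV', hx', ?_⟩
    rw [← app_res, ← app_res]
    have e' : res ((TF (⨆ i, W i)).obj A) hV' s = 0 := e
    rw [e', map_zero, map_zero]

lemma hom_glue (f : ∀ i, (TF (W i)).obj A ⟶ M)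
    (hf : ∀ i j, c (inf_le_left : W i ⊓ W j ≤ W i) A ≫ f i = c inf_le_right A ≫ f j) :
    ∃ g : (TF (⨆ i, W i)).obj A ⟶ M, ∀ i, c (le_iSup W i) A ≫ g = f i := by
  -- the relation
  let Rel : ∀ V : X.Opens, Γ((TF (⨆ i, W i)).obj A, V) → Γ(M, V) → Prop := fun V s t =>
    (∃ i, V ≤ W i ∧ ∃ si : Γ((TF (W i)).obj A, V), (c (le_iSup W i) A).app V si = s ∧
      (f i).app V si = t) ∨ (s = 0 ∧ t = 0)
  have hzero : ∀ (V : X.Opens) (i : ι) (si : Γ((TF (W i)).obj A, V)),
      (c (le_iSup W i) A).app V si = 0 → si = 0 := by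
    intro V i si h
    apply c_app_injective (le_iSup W i) A V
    rw [h, map_zero]
  have huniq : ∀ (U : X.Opens) (s : Γ((TF (⨆ i, W i)).obj A, U)) (t t' : Γ(M, U)),
      Rel U s t → Rel U s t' → t = t' := by
    rintro U s t t' (⟨i, hi, si, h1, rfl⟩ | ⟨rfl, rfl⟩) (⟨j, hj, sj, h2, rfl⟩ | ⟨h3, rfl⟩)
    · obtain ⟨r, hr⟩ := exists_c_app (inf_le_left : W i ⊓ W j ≤ W i) A (le_inf hi hj) si
      have hr' : (c (inf_le_right : W i ⊓ W j ≤ W j) A).app U r = sj := by
        apply inc_app_injective (W j) A U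
        rw [c_app_eq, ← c_app_eq (inf_le_left : W i ⊓ W j ≤ W i), hr, ← c_app_eq (le_iSup W i),
          h1, ← h2, c_app_eq]
      rw [← hr, ← hr']
      exact congr($(congr_arg (fun z : (TF (W i ⊓ W j)).obj A ⟶ M => z.app U) (hf i j)) r)
    · rw [h3] at h1
      rw [hzero _ _ _ h1, map_zero]
    · rw [hzero _ _ _ h2, map_zero]
    · rfl
  obtain ⟨g, hg⟩ := exists_hom_of_rel ((TF (⨆ i, W i)).obj A) M Rel
    (by
      intro U s x hx
      by_cases hxW : x ∈ ⨆ i, W i
      · obtain ⟨i, hi⟩ := Opens.mem_iSup.1 hxW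
        obtain ⟨t, ht⟩ := exists_c_app (le_iSup W i) A (W := U ⊓ W i) inf_le_right
          (res ((TF (⨆ i, W i)).obj A) inf_le_left s)
        exact ⟨U ⊓ W i, inf_le_left, (f i).app _ t, ⟨hx, hi⟩,
          Or.inl ⟨i, inf_le_right, t, ht, rfl⟩⟩
      · obtain ⟨V', hV', hx', e⟩ := suppIn_T (⨆ i, W i) A U s x hx hxW
        exact ⟨V', hV', 0, hx', Or.inr ⟨e, rfl⟩⟩)
    huniq
    (by
      rintro U V h s t (⟨i, hi, si, h1, rfl⟩ | ⟨rfl, rfl⟩)
      · exact Or.inl ⟨i, h.trans hi, res _ h si, by rw [app_res, h1], by rw [app_res]⟩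
      · exact Or.inr ⟨res_zero _ _, res_zero _ _⟩)
    (by
      rintro U s s' t t' (⟨i, hi, si, h1, rfl⟩ | ⟨rfl, rfl⟩) (⟨j, hj, sj, h2, rfl⟩ | ⟨rfl, rfl⟩)
      · obtain ⟨r, hr⟩ := exists_c_app (le_iSup W i) A hi s'
        have hr' : (f i).app U r = (f j).app U sj :=
          huniq U s' _ _ (Or.inl ⟨i, hi, r, hr, rfl⟩) (Or.inl ⟨j, hj, sj, h2, rfl⟩)
        exact Or.inl ⟨i, hi, si + r, by rw [map_add, h1, hr], by rw [map_add, hr']⟩
      · exact Or.inl ⟨i, hi, si, by rw [h1, add_zero], by rw [add_zero]⟩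
      · exact Or.inl ⟨j, hj, sj, by rw [h2, zero_add], by rw [zero_add]⟩
      · exact Or.inr ⟨add_zero _, add_zero _⟩)
    (by
      rintro U r s t (⟨i, hi, si, h1, rfl⟩ | ⟨rfl, rfl⟩) x hx
      · exact ⟨U, le_rfl, hx, Or.inl ⟨i, hi, r • si,
          by rw [Scheme.Modules.Hom.app_smul, h1, res_self],
          by rw [Scheme.Modules.Hom.app_smul, res_self]⟩⟩
      · exact ⟨U, le_rfl, hx, Or.inr ⟨by rw [smul_zero, res_zero], by rw [smul_zero, res_zero]⟩⟩)
  refine ⟨g, fun i => ?_⟩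
  apply Scheme.Modules.hom_ext
  intro V
  ext s
  refine eq_of_local M fun x hx => ?_
  by_cases hxW : x ∈ W i
  · refine ⟨V ⊓ W i, inf_le_left, ⟨hx, hxW⟩, ?_⟩
    rw [← app_res, ← app_res]
    exact hg _ _ _ (Or.inl ⟨i, inf_le_right, _, rfl, rfl⟩)
  · obtain ⟨V', hV', hx', e⟩ := suppIn_T (W i) A V s x hx hxW
    refine ⟨V', hV', hx', ?_⟩
    rw [← app_res, ← app_res]
    have e' : res ((TF (W i)).obj A) hV' s = 0 := e
    rw [e', map_zero, map_zero]

end Ext

/-- Morphisms out of `TF V A` form a sheaf in `V`. -/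
noncomputable def hSheaf (A M : X.Modules) : OSheaf X where
  obj V := (TF V).obj A ⟶ M
  res h f := c h A ≫ f
  res_self h f := by rw [c_self, Category.id_comp]
  res_res h h' f := by rw [c_comp_assoc]
  sep W f g h := hom_sep W f g h
  glue W f h := hom_glue W f h

end Groth.Agent.Dual.H329.EHom
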