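import Groth.Agent.Dual.H329.CochSheaf
import Groth.Agent.LoccohA.LCTHom

/-!
# Hom-sheaf property in `D(O_X)`, at the level of representatives
-/

set_option autoImplicit false

universe w v u

open CategoryTheory CategoryTheory.Limits AlgebraicGeometry Opposite TopologicalSpace

namespace Groth.Agent.Dual.H329.GlueAux

open CochainComplex CochainComplex.HomComplex DerivedCategory

section General

variable {C : Type u} [Category.{v} C] [Abelian C] [HasDerivedCategory.{w} C]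
  {K L : CochainComplex C ℤ}

lemma Q_map_eq_iff [L.IsKInjective] (f g : K ⟶ L) : Q.map f = Q.map g ↔
    ∃ t : Cochain K L (-1), δ (-1) 0 t = Cochain.ofHom f - Cochain.ofHom g := by
  rw [← sub_eq_zero, ← Functor.map_sub, LoccohA.LCTHom.Q_map_eq_zero_iff]
  constructor
  · intro h
    have h' : (HomotopyCategory.quotient C (ComplexShape.up ℤ)).map (f - g) =
        (HomotopyCategory.quotient C (ComplexShape.up ℤ)).map 0 := by
      rw [h, Functor.map_zero]
    obtain ⟨t, ht⟩ := Cochain.equivHomotopy _ _ (HomotopyCategory.homotopyOfEq _ _ h')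
    refine ⟨t, ?_⟩
    rw [Cochain.ofHom_zero, add_zero, Cochain.ofHom_sub] at ht
    exact ht.symm
  · rintro ⟨t, ht⟩
    have h := HomotopyCategory.eq_of_homotopy (f - g) 0
      ((Cochain.equivHomotopy _ _).symm ⟨t, by
        rw [Cochain.ofHom_zero, add_zero, Cochain.ofHom_sub, ht]⟩)
    rw [h, Functor.map_zero]

lemma exists_δ_of_hom_eq_zero [L.IsKInjective] (n m : ℤ) (hm : m + 1 = n) (t : Cochain K L n)
    (ht : δ n (n + 1) t = 0) (h : ∀ g : Q.obj K ⟶ (Q.obj L)⟦n⟧, g = 0) :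
    ∃ v : Cochain K L m, δ m n v = t := by
  have h1 := (LoccohA.LCTHom.clsQ_eq_zero_iff (Cocycle.mk t (n + 1) rfl ht)).1 (h _)
  rw [mem_coboundaries_iff _ m hm] at h1
  exact h1

end General

attribute [local instance] HasDerivedCategory.standard

open Groth.Agent.PerfC.ExtZero Groth.Agent.Dual.H329.OSheaf Groth.Agent.Dual.H329.EHom
open Groth.Agent.Dual.H329.CochSheaf

variable {X : Scheme.{u}} {A M : CochainComplex X.Modules ℤ} [M.IsKInjective]
  (hM : ∀ q, Injective (M.X q)) {ι : Type u} (W : ι → X.Opens)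

lemma ofHom_cC {V' V : X.Opens} (h : V' ≤ V) (f : (EC V).obj A ⟶ M) :
    (Cochain.ofHom ((cC h).app A ≫ f) : CC A M 0 V') = rs h (Cochain.ofHom f) := by
  rw [Cochain.ofHom_comp]
  rfl

include hM in
/-- Uniqueness in the Hom-sheaf property. -/
theorem eq_of_cover (hneg : ∀ i (U : X.Opens), U ≤ W i →
      ∀ g : Q.obj ((EC U).obj A) ⟶ (Q.obj M)⟦(-1 : ℤ)⟧, g = 0)
    {V : X.Opens} (hle : ∀ i, W i ≤ V) (hV : V ≤ ⨆ i, W i)
    (γ γ' : Q.obj ((EC V).obj A) ⟶ Q.obj M)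
    (h : ∀ i, Q.map ((cC (hle i)).app A) ≫ γ = Q.map ((cC (hle i)).app A) ≫ γ') : γ = γ' := by
  obtain ⟨f, rfl⟩ := LoccohA.LCTHom.Q_map_surjective γ
  obtain ⟨f', rfl⟩ := LoccohA.LCTHom.Q_map_surjective γ'
  rw [Q_map_eq_iff]
  refine exists_δ_eq hM (-2) (-1) 0 W hle hV _ (fun i => ?_) (fun i U hU t ht => ?_)
  · have e := h i
    rw [← Functor.map_comp, ← Functor.map_comp, Q_map_eq_iff] at e
    obtain ⟨t, ht⟩ := e
    exact ⟨t, by rw [ht, ofHom_cC, ofHom_cC, rs_sub]⟩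
  · exact exists_δ_of_hom_eq_zero (-1) (-2) (by norm_num) t ht (hneg i U hU)

include hM in
/-- Existence in the Hom-sheaf property. -/
theorem exists_glue (hneg : ∀ i (U : X.Opens), U ≤ W i →
      ∀ g : Q.obj ((EC U).obj A) ⟶ (Q.obj M)⟦(-1 : ℤ)⟧, g = 0)
    {V : X.Opens} (hle : ∀ i, W i ≤ V) (hV : V ≤ ⨆ i, W i)
    (g : ∀ i, Q.obj ((EC (W i)).obj A) ⟶ Q.obj M)
    (hg : ∀ i j, Q.map ((cC (inf_le_left : W i ⊓ W j ≤ W i)).app A) ≫ g i =
      Q.map ((cC (inf_le_right : W i ⊓ W j ≤ W j)).app A) ≫ g j) :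
    ∃ γ : Q.obj ((EC V).obj A) ⟶ Q.obj M, ∀ i, Q.map ((cC (hle i)).app A) ≫ γ = g i := by
  choose f hf using fun i => LoccohA.LCTHom.Q_map_surjective (g i)
  obtain ⟨z, hz, hz'⟩ := exists_glue_cocycle hM (-2) (-1) 0 1 W
    (fun i => (Cochain.ofHom (f i) : CC A M 0 (W i))) (fun i => δ_ofHom _)
    (fun i j => by
      have e := hg i j
      rw [← hf i, ← hf j, ← Functor.map_comp, ← Functor.map_comp, Q_map_eq_iff] at e
      obtain ⟨t, ht⟩ := e
      exact ⟨t, by rw [ht, ofHom_cC, ofHom_cC]⟩)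
    (fun i U hU t ht => exists_δ_of_hom_eq_zero (-1) (-2) (by norm_num) t ht (hneg i U hU))
  let φ : (EC (⨆ i, W i)).obj A ⟶ M := Cocycle.homOf (Cocycle.mk z 1 (by norm_num) hz)
  have hφ : (Cochain.ofHom φ : CC A M 0 (⨆ i, W i)) = z :=
    congr_arg Subtype.val (Cocycle.ofHom_homOf_eq_self (Cocycle.mk z 1 (by norm_num) hz))
  refine ⟨Q.map ((cC hV).app A ≫ φ), fun i => ?_⟩
  rw [← hf i, ← Functor.map_comp, Q_map_eq_iff, ← Category.assoc, cC_comp]
  obtain ⟨t, ht⟩ := hz' i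
  exact ⟨t, by rw [ht, ofHom_cC, hφ]⟩

end Groth.Agent.Dual.H329.GlueAux
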