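import Groth.Prelude.Def_Dual3
import Groth.Agent.LoccohA.GorBC
import Groth.Agent.Flat2D.CMBase
import Groth.Agent.Flat2D.EssRes
import Mathlib.FieldTheory.IntermediateField.Adjoin.Algebra

/-!
# Gorenstein morphisms and base change

The Gorenstein analogue of `Groth.Agent.Flat2D.CMBase`.

* `GorFib f x`: the local ring `O_{X,x} / m_{f x} O_{X,x}` of the fibre is Gorenstein.
* `isGorensteinAt_iff`: `Dual3.IsGorensteinAt f x ↔ flat ∧ GorFib f x`.
* `gor_iff_of_flat`: flat local criterion on stalks.
* `gor_stalk_iff_of_field`: invariance of Gorenstein local rings under essentially finite type field base change.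
* `gorFib_iff_of_baseChange`: behaviour of `GorFib` under base change.
-/

set_option autoImplicit false

universe u

open CategoryTheory Limits AlgebraicGeometry TensorProduct
open Groth.Agent.Flat2D.PbStalk Groth.Agent.Flat2D.FlatAtPt Groth.Agent.Flat2D.CMBase
open Groth.Agent.LoccohA.GorBC

namespace Groth.Agent.Dual.H329.GorBase

/-- The local ring of the fibre through `x` at `x`, as `O_{X,x} / m_{f x} O_{X,x}`, is
Gorenstein. -/
def GorFib {X Y : Scheme.{u}} (f : X ⟶ Y) (x : X) : Prop :=
  LocCoh.IsGorensteinLocalRing (X.presheaf.stalk x ⧸ fiberIdeal f x)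

lemma isGorensteinAt_iff {X Y : Scheme.{u}} (f : X ⟶ Y) (x : X) :
    Dual3.IsGorensteinAt f x ↔ (f.stalkMap x).hom.Flat ∧ GorFib f x :=
  and_congr_right fun _ => (isGorensteinLocalRing_iff_of_ringEquiv (fiberStalkEquiv f x)).symm

lemma gorFib_iff_of_isPullback {X Y F : Scheme.{u}} (f : X ⟶ Y) {y : Y} {i : F ⟶ X}
    {p : F ⟶ Spec (Y.residueField y)} (H : IsPullback i p f (Y.fromSpecResidueField y)) (z : F) :
    GorFib f (i z) ↔ LocCoh.IsGorensteinLocalRing (F.presheaf.stalk z) := by
  have : IsPreimmersion i := isPreimmersion_of_isPullback f H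
  exact isGorensteinLocalRing_iff_of_ringEquiv
    ((Ideal.quotEquivOfEq (ker_stalkMap_of_isPullback f H z).symm).trans
      (RingHom.quotientKerEquivOfSurjective (i.stalkMap_surjective z)))

/-- For a flat morphism at a point, with Noetherian local rings: total ring Gorenstein iff base and
fibre are Gorenstein. -/
lemma gor_iff_of_flat {X Y : Scheme.{u}} (f : X ⟶ Y) (x : X) (hf : (f.stalkMap x).hom.Flat)
    [IsNoetherianRing (X.presheaf.stalk x)] [IsNoetherianRing (Y.presheaf.stalk (f x))] :
    LocCoh.IsGorensteinLocalRing (X.presheaf.stalk x) ↔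
      LocCoh.IsGorensteinLocalRing (Y.presheaf.stalk (f x)) ∧ GorFib f x := by
  let : Algebra (Y.presheaf.stalk (f x)) (X.presheaf.stalk x) := (f.stalkMap x).hom.toAlgebra
  have h1 : Module.Flat (Y.presheaf.stalk (f x)) (X.presheaf.stalk x) := hf
  have h2 : IsLocalHom (algebraMap (Y.presheaf.stalk (f x)) (X.presheaf.stalk x)) :=
    inferInstanceAs (IsLocalHom (f.stalkMap x).hom)
  exact Groth.Agent.S0344.result (Y.presheaf.stalk (f x)) (X.presheaf.stalk x)

lemma gor_stalk_Spec {R : CommRingCat.{u}} (h : LocCoh.IsGorensteinRing R) (w : Spec R) :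
    LocCoh.IsGorensteinLocalRing ((Spec R).presheaf.stalk w) := by
  have h1 := h.isGorensteinLocalRing_localization w.asIdeal
  exact isGorensteinLocalRing_of_ringEquiv
    (Spec.stalkIso R w).symm.commRingCatIsoToRingEquiv h1

/-- An essentially finite type field extension is generated by a finite set. -/
lemma exists_adjoin_eq_top {k K : Type u} [Field k] [Field K] [Algebra k K]
    [Algebra.EssFiniteType k K] :
    ∃ s : Finset K, IntermediateField.adjoin k (s : Set K) = ⊤ := by
  have h1 : Algebra.EssFiniteType k (⊤ : IntermediateField k K) :=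
    Algebra.EssFiniteType.of_surjective
      (IntermediateField.topEquiv : (⊤ : IntermediateField k K) ≃ₐ[k] K).symm.toAlgHom
      (IntermediateField.topEquiv : (⊤ : IntermediateField k K) ≃ₐ[k] K).symm.surjective
  exact IntermediateField.essFiniteType_iff.1 h1

/-- `K ⊗_k L` is a Gorenstein ring when `L / k` is a finitely generated field extension. -/
lemma gor_tensor_right {k K L : Type u} [Field k] [Field K] [Field L] [Algebra k K] [Algebra k L]
    [Algebra.EssFiniteType k L] : LocCoh.IsGorensteinRing (K ⊗[k] L) := by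
  obtain ⟨s, hs⟩ := exists_adjoin_eq_top (k := k) (K := L)
  exact isGorensteinRing_tensor_of_fg s hs K (isGorensteinRing_of_isPrincipalIdealRing K)

lemma gor_tensor {k K L : Type u} [Field k] [Field K] [Field L] [Algebra k K] [Algebra k L]
    (h : Algebra.EssFiniteType k L ∨ Algebra.EssFiniteType k K) :
    LocCoh.IsGorensteinRing (K ⊗[k] L) := by
  rcases h with h | h
  · exact gor_tensor_right
  · exact isGorensteinRing_of_ringEquiv (Algebra.TensorProduct.comm k L K).toRingEquiv
      gor_tensor_right

section Field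

variable {κ κ' : CommRingCat.{u}} {F F' : Scheme.{u}} {φ : κ ⟶ κ'} {p : F ⟶ Spec κ}
  {p' : F' ⟶ Spec κ'} {q : F' ⟶ F}

/-- The fibre of a field base change `F' ⟶ F` over `z` is `Spec (κ(z) ⊗ κ')`, which is a Gorenstein
ring when one of the extensions is essentially of finite type. -/
lemma gorFib_of_field (hκ : IsField κ) (hκ' : IsField κ') (H : IsPullback q p' p (Spec.map φ))
    (z' : F')
    (h : φ.hom.EssFiniteType ∨ (resMap p (q z')).hom.EssFiniteType) :
    GorFib q z' := by
  let z := q z'
  let : Algebra κ κ' := φ.hom.toAlgebra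
  let : Algebra κ (F.residueField z) := (resMap p z).hom.toAlgebra
  let : Field κ := hκ.toField
  let : Field κ' := hκ'.toField
  let T := (F.residueField z) ⊗[κ] κ'
  have hcm : LocCoh.IsGorensteinRing T :=
    gor_tensor (k := κ) (K := F.residueField z) (L := κ') h
  -- the pullback square
  have hpo := CommRingCat.isPushout_tensorProduct κ (F.residueField z) κ'
  have hpb := isPullback_SpecMap_of_isPushout _ _ _ _ hpo
  have e1 : CommRingCat.ofHom (algebraMap κ (F.residueField z)) = resMap p z := rfl
  have e2 : CommRingCat.ofHom (algebraMap κ κ') = φ := rfl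
  rw [e1, e2] at hpb
  let a := Spec.map (CommRingCat.ofHom
    (Algebra.TensorProduct.includeLeftRingHom (R := κ) (A := F.residueField z) (B := κ')))
  let b := Spec.map (CommRingCat.ofHom
    (Algebra.TensorProduct.includeRight (R := κ) (A := F.residueField z) (B := κ')).toRingHom)
  have hpb' : IsPullback a b (F.fromSpecResidueField z ≫ p) (Spec.map φ) := by
    rw [← SpecMap_resMap]
    exact hpb
  let i : Spec (CommRingCat.of T) ⟶ F' := H.lift (a ≫ F.fromSpecResidueField z) b
    (by rw [Category.assoc]; exact hpb'.w)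
  have hi1 : i ≫ q = a ≫ F.fromSpecResidueField z := H.lift_fst _ _ _
  have hi2 : i ≫ p' = b := H.lift_snd _ _ _
  have hsq : IsPullback i a q (F.fromSpecResidueField z) := by
    refine IsPullback.of_right (h₁₂ := p') (h₂₂ := p) (v₁₃ := Spec.map φ) ?_ hi1 H.flip
    rw [hi2]
    exact hpb'.flip
  obtain ⟨w, hw⟩ : ∃ w, i w = z' := by
    have := Scheme.exists_preimage_of_isPullback hsq z'
      (IsLocalRing.closedPoint (F.residueField z))
      (Scheme.fromSpecResidueField_apply _ _).symm
    obtain ⟨w, hw, -⟩ := this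
    exact ⟨w, hw⟩
  rw [← hw]
  rw [gorFib_iff_of_isPullback q hsq w]
  exact gor_stalk_Spec hcm w

/-- Gorensteinness is invariant under field base change. -/
theorem gor_stalk_iff_of_field (hκ : IsField κ) (hκ' : IsField κ')
    (H : IsPullback q p' p (Spec.map φ)) (z' : F')
    (h : φ.hom.EssFiniteType ∨ (resMap p (q z')).hom.EssFiniteType)
    [IsNoetherianRing (F.presheaf.stalk (q z'))] [IsNoetherianRing (F'.presheaf.stalk z')] :
    LocCoh.IsGorensteinLocalRing (F'.presheaf.stalk z') ↔
      LocCoh.IsGorensteinLocalRing (F.presheaf.stalk (q z')) := by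
  have hφ : Flat (Spec.map φ) := by
    rw [Flat.SpecMap_iff]
    exact RingHom.Flat.of_isField hκ _
  have hq : Flat q := MorphismProperty.of_isPullback H.flip hφ
  rw [gor_iff_of_flat q z' (Flat.stalkMap q z')]
  exact and_iff_left (gorFib_of_field hκ hκ' H z' h)

end Field

section BaseChange

variable {X Y X' Y' : Scheme.{u}} {f : X ⟶ Y} {f' : X' ⟶ Y'} {g' : X' ⟶ X} {g : Y' ⟶ Y}

/-- Behaviour of the Gorenstein property of the fibres under base change. -/
theorem gorFib_iff_of_baseChange (hc : IsPullback g' f' f g) (x' : X')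
    (h : (g.residueFieldMap (f' x')).hom.EssFiniteType ∨
      (resMap (f.fiberToSpecResidueField (g (f' x')))
        (fibMap hc (f' x') (f'.asFiber x'))).hom.EssFiniteType)
    [IsNoetherianRing ((f.fiber (g (f' x'))).presheaf.stalk (fibMap hc (f' x') (f'.asFiber x')))]
    [IsNoetherianRing ((f'.fiber (f' x')).presheaf.stalk (f'.asFiber x'))] :
    GorFib f' x' ↔ GorFib f (g' x') := by
  have h1 : GorFib f' x' ↔
      LocCoh.IsGorensteinLocalRing ((f'.fiber (f' x')).presheaf.stalk (f'.asFiber x')) :=
    isGorensteinLocalRing_iff_of_ringEquiv (fiberStalkEquiv f' x')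
  have h2 := gorFib_iff_of_isPullback f
    (IsPullback.of_hasPullback f (Y.fromSpecResidueField (g (f' x'))))
    (fibMap hc (f' x') (f'.asFiber x'))
  have h3 : (pullback.fst f (Y.fromSpecResidueField (g (f' x'))))
      (fibMap hc (f' x') (f'.asFiber x')) = g' x' := by
    change (f.fiberι (g (f' x'))) (fibMap hc (f' x') (f'.asFiber x')) = g' x'
    rw [← Scheme.Hom.comp_apply, fibMap_fiberι, Scheme.Hom.comp_apply, f'.fiberι_asFiber]
  rw [h3] at h2
  rw [h1, h2]
  exact gor_stalk_iff_of_field (Field.toIsField _) (Field.toIsField _)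
    (fibMap_isPullback hc (f' x')) (f'.asFiber x') h

/-- Base change along a morphism locally of finite type, with locally Noetherian fibres. -/
theorem gorFib_iff_of_locallyOfFiniteType (hc : IsPullback g' f' f g) [LocallyOfFiniteType g]
    (hN : ∀ y : Y, IsLocallyNoetherian (f.fiber y)) (x' : X') :
    GorFib f' x' ↔ GorFib f (g' x') := by
  have hE := Groth.Agent.Flat2D.EssRes.essFiniteType_residueFieldMap g (f' x')
  have hN1 : IsLocallyNoetherian (f.fiber (g (f' x'))) := hN _
  have hN2 := isNoetherianRing_stalk_of_essFiniteType (fibMap_isPullback hc (f' x'))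
    (f'.asFiber x') hE
  exact gorFib_iff_of_baseChange hc x' (Or.inl hE)

end BaseChange

end Groth.Agent.Dual.H329.GorBase
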