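import Groth.Agent.Dual.H329.CochSheaf
import Groth.Agent.PerfC.ExtZeroD
import Mathlib.Algebra.Homology.DerivedCategory.ExactFunctor

/-!
# The functors `T V` on `D(O_X)`: extension by zero of the restriction to `V`

* `T V : DCoh.D X ⥤ DCoh.D X` is `(ExtZero.TF V).mapDerivedCategory`.
* `ε V : T V ⟶ 𝟭 _`, `cD h : T V' ⟶ T V` for `V' ≤ V`.
* `cD_ε`, `cD_comp`, `cD_self`.
* `isIso_restrictD_ε`, `supp_T`, `bijective_comp_ε`.
-/

set_option autoImplicit false

universe w v u

open CategoryTheory CategoryTheory.Limits AlgebraicGeometry Opposite TopologicalSpace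

namespace Groth.Agent.Dual.H329.TV

open Groth.Agent.PerfC.ExtZero Groth.Agent.Dual.H329.EHom Groth.Agent.Dual.H329.CochSheaf
open DerivedCategory AlgebraicGeometry.Scheme.Modules

section Gen

variable {C₁ : Type*} [Category* C₁] [Abelian C₁] [HasDerivedCategory C₁] {E : Type*} [Category* E]

/-- A natural transformation of functors out of the derived category, from one on complexes. -/
noncomputable def natOfQ {F G : DerivedCategory C₁ ⥤ E} (e : Q ⋙ F ⟶ Q ⋙ G) : F ⟶ G :=
  Localization.liftNatTrans Q (HomologicalComplex.quasiIso C₁ (ComplexShape.up ℤ)) (Q ⋙ F) (Q ⋙ G)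
    F G e

@[simp]
lemma natOfQ_app {F G : DerivedCategory C₁ ⥤ E} (e : Q ⋙ F ⟶ Q ⋙ G)
    (K : CochainComplex C₁ ℤ) : (natOfQ e).app (Q.obj K) = e.app K := by
  dsimp only [natOfQ]
  rw [Localization.liftNatTrans_app]
  change 𝟙 _ ≫ e.app K ≫ 𝟙 _ = e.app K
  rw [Category.id_comp, Category.comp_id]

lemma nat_ext {F G : DerivedCategory C₁ ⥤ E} (a b : F ⟶ G)
    (h : ∀ K : CochainComplex C₁ ℤ, a.app (Q.obj K) = b.app (Q.obj K)) : a = b :=
  Localization.natTrans_ext Q (HomologicalComplex.quasiIso C₁ (ComplexShape.up ℤ)) h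

end Gen

variable {X Y : Scheme.{u}}

/-- `TF` of the range of an open immersion is restriction followed by extension by zero. -/
noncomputable def tfIso (j : Y ⟶ X) [IsOpenImmersion j] :
    TF j.opensRange ≅ restrictFunctor j ⋙ jShriek j :=
  NatIso.ofComponents (fun N => asIso (tEta j N)) (fun φ => (tEta_naturality j φ))

instance pfl_TF (V : X.Opens) : PreservesFiniteLimits (TF V) := by
  have h : PreservesFiniteLimits (TF V.ι.opensRange) :=
    preservesFiniteLimits_of_natIso (tfIso V.ι).symm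
  rwa [Scheme.Opens.opensRange_ι] at h

instance pfc_TF (V : X.Opens) : PreservesFiniteColimits (TF V) := by
  have h : PreservesFiniteColimits (TF V.ι.opensRange) :=
    preservesFiniteColimits_of_natIso (tfIso V.ι).symm
  rwa [Scheme.Opens.opensRange_ι] at h

attribute [local instance] HasDerivedCategory.standard

/-- Extension by zero of the restriction to `V`, on the derived category. -/
noncomputable abbrev T (V : X.Opens) : DCoh.D X ⥤ DCoh.D X := (TF V).mapDerivedCategory

/-- `T V` on the image of a complex. -/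
noncomputable def qT (V : X.Opens) (A : CochainComplex X.Modules ℤ) :
    (T V).obj (Q.obj A) ≅ Q.obj ((EC V).obj A) :=
  (TF V).mapDerivedCategoryFactors.app A

@[reassoc]
lemma qT_hom_naturality (V : X.Opens) {A B : CochainComplex X.Modules ℤ} (f : A ⟶ B) :
    (T V).map (Q.map f) ≫ (qT V B).hom = (qT V A).hom ≫ Q.map ((EC V).map f) :=
  (TF V).mapDerivedCategoryFactors.hom.naturality f

/-- The natural transformation `T V' ⟶ T V` for `V' ≤ V`. -/
noncomputable def cD {V' V : X.Opens} (h : V' ≤ V) : T V' ⟶ T V :=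
  natOfQ
    { app := fun A => (qT V' A).hom ≫ Q.map ((cC h).app A) ≫ (qT V A).inv
      naturality := fun A B f => by
        dsimp only [Functor.comp_map, Functor.comp_obj]
        rw [qT_hom_naturality_assoc, Category.assoc, Category.assoc, ← Functor.map_comp_assoc,
          (cC h).naturality, Functor.map_comp_assoc]
        congr 2
        rw [Iso.comp_inv_eq, Category.assoc, qT_hom_naturality, Iso.inv_hom_id_assoc] }

@[simp]
lemma cD_app_Q {V' V : X.Opens} (h : V' ≤ V) (A : CochainComplex X.Modules ℤ) :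
    (cD h).app (Q.obj A) = (qT V' A).hom ≫ Q.map ((cC h).app A) ≫ (qT V A).inv :=
  natOfQ_app _ A

/-- The counit `T V ⟶ 𝟭`. -/
noncomputable def ε (V : X.Opens) : T V ⟶ 𝟭 (DCoh.D X) :=
  natOfQ
    { app := fun A => (qT V A).hom ≫ Q.map (incC V A)
      naturality := fun A B f => by
        dsimp only [Functor.comp_map, Functor.comp_obj, Functor.id_map, Functor.id_obj]
        rw [qT_hom_naturality_assoc, Category.assoc, ← Functor.map_comp, ← Functor.map_comp,
          incC_naturality] }

@[simp]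
lemma ε_app_Q (V : X.Opens) (A : CochainComplex X.Modules ℤ) :
    (ε V).app (Q.obj A) = (qT V A).hom ≫ Q.map (incC V A) :=
  natOfQ_app _ A

@[reassoc (attr := simp)]
lemma cD_comp {V'' V' V : X.Opens} (h' : V'' ≤ V') (h : V' ≤ V) :
    cD h' ≫ cD h = cD (h'.trans h) := by
  refine nat_ext _ _ fun A => ?_
  simp [← Functor.map_comp_assoc]

@[reassoc (attr := simp)]
lemma cD_app_comp {V'' V' V : X.Opens} (h' : V'' ≤ V') (h : V' ≤ V) (K : DCoh.D X) :
    (cD h').app K ≫ (cD h).app K = (cD (h'.trans h)).app K := by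
  rw [← NatTrans.comp_app, cD_comp]

@[simp]
lemma cD_self {V : X.Opens} (h : V ≤ V) : cD h = 𝟙 _ := by
  refine nat_ext _ _ fun A => ?_
  simp

@[reassoc (attr := simp)]
lemma cD_ε {V' V : X.Opens} (h : V' ≤ V) : cD h ≫ ε V = ε V' := by
  refine nat_ext _ _ fun A => ?_
  simp [← Functor.map_comp]

@[reassoc (attr := simp)]
lemma cD_app_ε {V' V : X.Opens} (h : V' ≤ V) (K : DCoh.D X) :
    (cD h).app K ≫ (ε V).app K = (ε V').app K := by
  rw [← NatTrans.comp_app, cD_ε]

@[reassoc]
lemma cD_naturality {V' V : X.Opens} (h : V' ≤ V) {K L : DCoh.D X} (f : K ⟶ L) :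
    (T V').map f ≫ (cD h).app L = (cD h).app K ≫ (T V).map f := (cD h).naturality f

@[reassoc]
lemma ε_naturality (V : X.Opens) {K L : DCoh.D X} (f : K ⟶ L) :
    (T V).map f ≫ (ε V).app L = (ε V).app K ≫ f := (ε V).naturality f

open Groth.Agent.PerfA.Restrict Groth.Agent.PerfA Groth.Agent.CohqB Groth.Agent.PerfC.Supp
open Groth.Agent.PerfC.PcLocal Groth.Agent.PerfC.ExtZeroD

lemma isIso_restrict_inc (V : X.Opens) (j : Y ⟶ X) [IsOpenImmersion j] (hj : j.opensRange ≤ V)
    (N : X.Modules) : IsIso ((restrictFunctor j).map (inc V N)) := by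
  rw [Scheme.Modules.Hom.isIso_iff_isIso_app]
  intro W
  rw [ConcreteCategory.isIso_iff_bijective]
  exact incl_app_bijective_of_le V N (V := j ''ᵁ W) ((Scheme.Hom.image_le_opensRange j W).trans hj)

/-- `ε` is an isomorphism over opens contained in `V`. -/
lemma isIso_restrictD_ε (V : X.Opens) (j : Y ⟶ X) [IsOpenImmersion j] (hj : j.opensRange ≤ V)
    (K : DCoh.D X) : IsIso ((restrictD j).map ((ε V).app K)) := by
  let A := Q.objPreimage K
  have e : Q.obj A ≅ K := Q.objObjPreimageIso K
  have h1 : IsIso (((restrictFunctor j).mapHomologicalComplex (ComplexShape.up ℤ)).map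
      (incC V A)) := by
    have : ∀ i, IsIso ((((restrictFunctor j).mapHomologicalComplex (ComplexShape.up ℤ)).map
      (incC V A)).f i) := fun i => isIso_restrict_inc V j hj (A.X i)
    exact HomologicalComplex.Hom.isIso_of_components _
  have h2 : IsIso ((restrictD j).map (Q.map (incC V A))) :=
    (NatIso.isIso_map_iff (restrictFunctor j).mapDerivedCategoryFactors (incC V A)).2
      (inferInstanceAs (IsIso (Q.map (((restrictFunctor j).mapHomologicalComplex
        (ComplexShape.up ℤ)).map (incC V A)))))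
  have h3 : IsIso ((restrictD j).map ((ε V).app (Q.obj A))) := by
    rw [ε_app_Q, Functor.map_comp]
    infer_instance
  have h4 : (T V).map e.hom ≫ (ε V).app K = (ε V).app (Q.obj A) ≫ e.hom := ε_naturality V e.hom
  have h5 : (ε V).app K = (T V).map e.inv ≫ (ε V).app (Q.obj A) ≫ e.hom := by
    rw [← h4, ← Functor.map_comp_assoc, e.inv_hom_id, CategoryTheory.Functor.map_id,
      Category.id_comp]
  rw [h5, Functor.map_comp, Functor.map_comp]
  infer_instance

/-- `cD` is an isomorphism over opens contained in `V'`. -/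
lemma isIso_restrictD_cD {V' V : X.Opens} (h : V' ≤ V) (j : Y ⟶ X) [IsOpenImmersion j]
    (hj : j.opensRange ≤ V') (K : DCoh.D X) : IsIso ((restrictD j).map ((cD h).app K)) := by
  have h1 := isIso_restrictD_ε V j (hj.trans h) K
  have h2 := isIso_restrictD_ε V' j hj K
  rw [← cD_app_ε h K, Functor.map_comp] at h2
  exact IsIso.of_isIso_comp_right _ ((restrictD j).map ((ε V).app K))

/-- The cohomology sheaves of `T V K`. -/
noncomputable def HDT (V : X.Opens) (K : DCoh.D X) (n : ℤ) :
    DCoh.HD ((T V).obj K) n ≅ (TF V).obj (DCoh.HD K n) :=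
  (ExactD.mapHomology (TF V) n).app K

lemma supp_T_subset (V : X.Opens) (K : DCoh.D X) (n : ℤ) :
    supp ((T V).obj K) n ⊆ (V : Set X) := by
  rw [supp, DevSupport.support_congr (HDT V K n)]
  exact support_subset_of_suppIn (suppIn_T V _)

lemma supp_T_subset_range (V : X.Opens) (K : DCoh.D X) (n : ℤ) :
    supp ((T V).obj K) n ⊆ Set.range V.ι := by
  rw [Scheme.Opens.range_ι]
  exact supp_T_subset V K n

lemma opensRange_ι_le (V : X.Opens) : V.ι.opensRange ≤ V := (Scheme.Opens.opensRange_ι V).le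

instance isIso_restrictD_ε' (V : X.Opens) (K : DCoh.D X) :
    IsIso ((restrictD V.ι).map ((ε V).app K)) :=
  isIso_restrictD_ε V V.ι (opensRange_ι_le V) K

lemma isIso_ε_app {V : X.Opens} {K : DCoh.D X} (hK : ∀ n, supp K n ⊆ (V : Set X)) :
    IsIso ((ε V).app K) :=
  isIso_of_supp (j := V.ι) _ (supp_T_subset_range V K)
    (fun n => by rw [Scheme.Opens.range_ι]; exact hK n) inferInstance

lemma isIso_cD_app {V' V : X.Opens} (h : V' ≤ V) {K : DCoh.D X}
    (hK : ∀ n, supp K n ⊆ (V' : Set X)) : IsIso ((cD h).app K) := by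
  have h1 := isIso_ε_app hK
  have h2 := isIso_ε_app (V := V) (K := K) fun n => (hK n).trans h
  rw [← cD_app_ε h K] at h1
  exact IsIso.of_isIso_comp_right _ ((ε V).app K)

/-- Restriction to `V` is bijective on morphisms out of an object supported in `V`. -/
lemma bijective_restrictD {V : X.Opens} {K : DCoh.D X} (L : DCoh.D X)
    (hK : ∀ n, supp K n ⊆ (V : Set X)) :
    Function.Bijective (fun f : K ⟶ L => (restrictD V.ι).map f) :=
  bijective_restrictD_map V.ι K L fun n => by rw [Scheme.Opens.range_ι]; exact hK n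

/-- Morphisms out of objects supported in `V` are detected over `V`. -/
lemma hom_ext_of_supp {V : X.Opens} {K L : DCoh.D X} (hK : ∀ n, supp K n ⊆ (V : Set X))
    {f g : K ⟶ L} (h : (restrictD V.ι).map f = (restrictD V.ι).map g) : f = g :=
  (bijective_restrictD L hK).1 h

lemma bijective_comp_of_isIso {V : X.Opens} {K L M : DCoh.D X}
    (hK : ∀ n, supp K n ⊆ (V : Set X)) (φ : L ⟶ M) (hφ : IsIso ((restrictD V.ι).map φ)) :
    Function.Bijective (fun f : K ⟶ L => f ≫ φ) := by
  have h1 := bijective_restrictD M hK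
  have h2 := bijective_restrictD L hK
  have h3 : Function.Bijective (fun f : (restrictD V.ι).obj K ⟶ (restrictD V.ι).obj L =>
      f ≫ (restrictD V.ι).map φ) :=
    ⟨fun f g h => (cancel_mono _).1 h, fun g => ⟨g ≫ inv ((restrictD V.ι).map φ), by simp⟩⟩
  have h4 : (fun f : K ⟶ M => (restrictD V.ι).map f) ∘ (fun f : K ⟶ L => f ≫ φ) =
      (fun f : (restrictD V.ι).obj K ⟶ (restrictD V.ι).obj L => f ≫ (restrictD V.ι).map φ) ∘
        (fun f : K ⟶ L => (restrictD V.ι).map f) := by
    funext f
    exact Functor.map_comp _ _ _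
  exact (Function.Bijective.of_comp_iff' h1 _).1 (h4 ▸ h3.comp h2)

/-- `T V L ⟶ L` is the universal morphism from objects supported in `V`. -/
lemma bijective_comp_ε {V : X.Opens} {K : DCoh.D X} (L : DCoh.D X)
    (hK : ∀ n, supp K n ⊆ (V : Set X)) :
    Function.Bijective (fun f : K ⟶ (T V).obj L => f ≫ (ε V).app L) :=
  bijective_comp_of_isIso hK _ inferInstance

/-- If `φ` is an isomorphism over `V` then `T V φ` is an isomorphism. -/
lemma isIso_T_map {V : X.Opens} {K L : DCoh.D X} (φ : K ⟶ L)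
    (hφ : IsIso ((restrictD V.ι).map φ)) : IsIso ((T V).map φ) := by
  refine isIso_of_supp (j := V.ι) _ (supp_T_subset_range V K) (supp_T_subset_range V L) ?_
  have h : (restrictD V.ι).map ((T V).map φ) =
      (restrictD V.ι).map ((ε V).app K) ≫ (restrictD V.ι).map φ ≫
        inv ((restrictD V.ι).map ((ε V).app L)) := by
    rw [← Category.assoc, IsIso.eq_comp_inv, ← Functor.map_comp, ← Functor.map_comp, ε_naturality]
  rw [h]
  infer_instance

/-- `T V K ≅ K'` if `K' ⟶ K` is an isomorphism over `V` and `K'` is supported in `V`. -/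
noncomputable def isoOfSupp {V : X.Opens} {K' K : DCoh.D X} (a : K' ⟶ K)
    (hK : ∀ n, supp K' n ⊆ (V : Set X)) (ha : IsIso ((restrictD V.ι).map a)) :
    K' ≅ (T V).obj K :=
  haveI := isIso_ε_app hK
  haveI := isIso_T_map a ha
  (asIso ((ε V).app K')).symm ≪≫ asIso ((T V).map a)

@[reassoc (attr := simp)]
lemma isoOfSupp_hom_ε {V : X.Opens} {K' K : DCoh.D X} (a : K' ⟶ K)
    (hK : ∀ n, supp K' n ⊆ (V : Set X)) (ha : IsIso ((restrictD V.ι).map a)) :
    (isoOfSupp a hK ha).hom ≫ (ε V).app K = a := by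
  have := isIso_ε_app hK
  dsimp only [isoOfSupp, Iso.trans_hom, Iso.symm_hom, asIso_inv, asIso_hom]
  rw [Category.assoc, IsIso.inv_comp_eq, ε_naturality]

@[reassoc (attr := simp)]
lemma isoOfSupp_inv_comp {V : X.Opens} {K' K : DCoh.D X} (a : K' ⟶ K)
    (hK : ∀ n, supp K' n ⊆ (V : Set X)) (ha : IsIso ((restrictD V.ι).map a)) :
    (isoOfSupp a hK ha).inv ≫ a = (ε V).app K := by
  rw [Iso.inv_comp_eq, isoOfSupp_hom_ε]

/-- The support of `T V K`. -/
lemma supp_T (V : X.Opens) (K : DCoh.D X) (n : ℤ) :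
    supp ((T V).obj K) n = supp K n ∩ (V : Set X) := by
  have h1 := supp_restrictD V.ι ((T V).obj K) n
  have h2 := supp_restrictD V.ι K n
  rw [supp_congr (asIso ((restrictD V.ι).map ((ε V).app K))) n] at h1
  have h3 : V.ι ⁻¹' (supp ((T V).obj K) n) = V.ι ⁻¹' (supp K n) := h1.symm.trans h2
  have h4 := congr_arg (fun s => V.ι '' s) h3
  dsimp only at h4
  rw [Set.image_preimage_eq_inter_range, Set.image_preimage_eq_inter_range, Scheme.Opens.range_ι,
    Set.inter_eq_self_of_subset_left (supp_T_subset V K n)] at h4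
  exact h4

end Groth.Agent.Dual.H329.TV
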