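import Groth.Agent.Dual.H329.GlueAux
import Groth.Agent.Dual.H329.TV
import Groth.Agent.CohtopA.KInjRes2
import Groth.Agent.PerfA.QCohRes

/-!
# The Hom-sheaf property in `D(O_X)` (BBD)

`K L : DCoh.D X`, `W : ι → X.Opens`. If `Hom(T_U K, L[-1]) = 0` for all `U` contained in some
`W i`, then morphisms `T_{W i} K ⟶ L` which agree on `T_{W i ⊓ W j} K` glue uniquely.

* `hom_ext`, `exists_hom`: for indexed covers.
* `HS`: for downward closed sets of opens.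
* `HSfree`: for arbitrary `A V ⟶ K` which are isomorphisms over `V`, with `A V` supported in `V`.
-/

set_option autoImplicit false

universe u

open CategoryTheory CategoryTheory.Limits AlgebraicGeometry Opposite TopologicalSpace

namespace Groth.Agent.Dual.H329.HomSheaf

open Groth.Agent.Dual.H329.EHom Groth.Agent.Dual.H329.CochSheaf
open Groth.Agent.Dual.H329.TV DerivedCategory
open Groth.Agent.PerfA.Restrict Groth.Agent.PerfC.Supp

attribute [local instance] HasDerivedCategory.standard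

variable {X : Scheme.{u}}

/-- Every object of `D(O_X)` is represented by a K-injective complex with injective terms. -/
lemma exists_inj_rep (L : DCoh.D X) : ∃ M : CochainComplex X.Modules ℤ, M.IsKInjective ∧
    (∀ q, Injective (M.X q)) ∧ Nonempty (Q.obj M ≅ L) := by
  obtain ⟨F, ⟨e⟩⟩ := exists_rep X L
  obtain ⟨I, f, h1, h2, -, h3⟩ :=
    Groth.Agent.CohtopA.KInjRes2.exists_kInjective_resolution.{u} F
  exact ⟨I, h1, h3, ⟨(asIso (Q.map f)).symm ≪≫ e⟩⟩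

variable {K L : DCoh.D X}

section Rep

variable {A M : CochainComplex X.Modules ℤ} (eK : Q.obj A ≅ K)

/-- Transport to representatives. -/
noncomputable def toQ {N L : DCoh.D X} (eL : N ≅ L) (V : X.Opens) :
    ((T V).obj K ⟶ L) ≃ (Q.obj ((EC V).obj A) ⟶ N) :=
  ((T V).mapIso eK.symm ≪≫ qT V A).homCongr eL.symm

lemma toQ_apply {N L : DCoh.D X} (eL : N ≅ L) (V : X.Opens) (f : (T V).obj K ⟶ L) :
    toQ eK eL V f = (qT V A).inv ≫ (T V).map eK.hom ≫ f ≫ eL.inv := by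
  simp [toQ]

lemma toQ_cD {N L : DCoh.D X} (eL : N ≅ L) {V' V : X.Opens} (h : V' ≤ V)
    (f : (T V).obj K ⟶ L) :
    Q.map ((cC h).app A) ≫ toQ eK eL V f = toQ eK eL V' ((cD h).app K ≫ f) := by
  rw [toQ_apply, toQ_apply, Category.assoc, cD_naturality_assoc, cD_app_Q]
  simp

include eK in
lemma hneg_toQ {M : CochainComplex X.Modules ℤ} (eL : Q.obj M ≅ L) {U : X.Opens} {n : ℤ}
    (h : ∀ g : (T U).obj K ⟶ L⟦n⟧, g = 0)
    (g : Q.obj ((EC U).obj A) ⟶ (Q.obj M)⟦n⟧) : g = 0 := by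
  have e := (toQ eK ((shiftFunctor (DCoh.D X) n).mapIso eL) U).apply_symm_apply g
  rw [h ((toQ eK ((shiftFunctor (DCoh.D X) n).mapIso eL) U).symm g), toQ_apply] at e
  rw [← e, zero_comp, comp_zero, comp_zero]

end Rep

section Cover

variable {ι : Type u} (W : ι → X.Opens)
  (hneg : ∀ i (U : X.Opens), U ≤ W i → ∀ g : (T U).obj K ⟶ L⟦(-1 : ℤ)⟧, g = 0)
  {V : X.Opens} (hle : ∀ i, W i ≤ V) (hV : V ≤ ⨆ i, W i)

include hneg hV in
/-- Uniqueness in the Hom-sheaf property. -/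
theorem hom_ext (γ γ' : (T V).obj K ⟶ L)
    (h : ∀ i, (cD (hle i)).app K ≫ γ = (cD (hle i)).app K ≫ γ') : γ = γ' := by
  obtain ⟨A, ⟨eK⟩⟩ := exists_rep X K
  obtain ⟨M, hM1, hM2, ⟨eL⟩⟩ := exists_inj_rep L
  apply (toQ eK eL V).injective
  refine GlueAux.eq_of_cover hM2 W (fun i U hU => hneg_toQ eK eL (hneg i U hU)) hle hV _ _
    fun i => ?_
  rw [toQ_cD, toQ_cD, h]

include hneg hV in
/-- Existence in the Hom-sheaf property. -/
theorem exists_hom (g : ∀ i, (T (W i)).obj K ⟶ L)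
    (hg : ∀ i j, (cD (inf_le_left : W i ⊓ W j ≤ W i)).app K ≫ g i =
      (cD (inf_le_right : W i ⊓ W j ≤ W j)).app K ≫ g j) :
    ∃ γ : (T V).obj K ⟶ L, ∀ i, (cD (hle i)).app K ≫ γ = g i := by
  obtain ⟨A, ⟨eK⟩⟩ := exists_rep X K
  obtain ⟨M, hM1, hM2, ⟨eL⟩⟩ := exists_inj_rep L
  obtain ⟨γ, hγ⟩ := GlueAux.exists_glue hM2 W (fun i U hU => hneg_toQ eK eL (hneg i U hU)) hle hV
    (fun i => toQ eK eL (W i) (g i)) (fun i j => by rw [toQ_cD, toQ_cD, hg])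
  refine ⟨(toQ eK eL V).symm γ, fun i => ?_⟩
  apply (toQ eK eL (W i)).injective
  rw [← toQ_cD, Equiv.apply_symm_apply, hγ]

end Cover

section Down

variable {B : Set X.Opens} (hB : ∀ V ∈ B, ∀ V' ≤ V, V' ∈ B)

include hB in
/-- The Hom-sheaf property for a downward closed set of opens. -/
theorem HS (hneg : ∀ V ∈ B, ∀ g : (T V).obj K ⟶ L⟦(-1 : ℤ)⟧, g = 0)
    (g : ∀ V ∈ B, (T V).obj K ⟶ L)
    (hg : ∀ (V' V : X.Opens) (hV' : V' ∈ B) (hV : V ∈ B) (h : V' ≤ V),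
      (cD h).app K ≫ g V hV = g V' hV') :
    ∃! h : (T (sSup B)).obj K ⟶ L, ∀ V (hV : V ∈ B), (cD (le_sSup hV)).app K ≫ h = g V hV := by
  have hle : ∀ V : B, (V : X.Opens) ≤ sSup B := fun V => le_sSup V.2
  have hsup : sSup B ≤ ⨆ V : B, (V : X.Opens) := (sSup_eq_iSup' B).le
  have hneg' : ∀ (V : B) (U : X.Opens), U ≤ V → ∀ g : (T U).obj K ⟶ L⟦(-1 : ℤ)⟧, g = 0 :=
    fun V U hU => hneg U (hB V V.2 U hU)
  obtain ⟨γ, hγ⟩ := exists_hom (fun V : B => (V : X.Opens)) hneg' hle hsup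
    (fun V => g V V.2) (fun V V' => by
      rw [hg _ _ (hB V V.2 _ inf_le_left) V.2, hg _ _ (hB V V.2 _ inf_le_left) V'.2])
  refine ⟨γ, fun V hV => hγ ⟨V, hV⟩, fun γ' hγ' => ?_⟩
  refine hom_ext (fun V : B => (V : X.Opens)) hneg' hle hsup _ _ fun V => ?_
  rw [hγ, hγ' V V.2]

include hB in
/-- The Hom-sheaf property for a downward closed set of opens, without reference to `T`. -/
theorem HSfree (hK : ∀ n, supp K n ⊆ ((sSup B : X.Opens) : Set X)) (A : B → DCoh.D X)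
    (a : ∀ V : B, A V ⟶ K) (hA : ∀ (V : B) n, supp (A V) n ⊆ ((V : X.Opens) : Set X))
    (ha : ∀ V : B, IsIso ((restrictD V.1.ι).map (a V)))
    (hneg : ∀ V : B, ∀ g : A V ⟶ L⟦(-1 : ℤ)⟧, g = 0)
    (g : ∀ V : B, A V ⟶ L)
    (hg : ∀ V' V : B, V'.1 ≤ V.1 → ∀ u : A V' ⟶ A V, u ≫ a V = a V' → u ≫ g V = g V') :
    ∃! h : K ⟶ L, ∀ V : B, a V ≫ h = g V := by
  let i : ∀ V : B, A V ≅ (T V.1).obj K := fun V => isoOfSupp (a V) (hA V) (ha V)
  have hi : ∀ V : B, (i V).hom ≫ (ε V.1).app K = a V := fun V => isoOfSupp_hom_ε _ _ _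
  have hi' : ∀ V : B, (i V).inv ≫ a V = (ε V.1).app K := fun V => isoOfSupp_inv_comp _ _ _
  have hε : IsIso ((ε (sSup B)).app K) := isIso_ε_app hK
  obtain ⟨h, hh, huniq⟩ := HS (K := K) (L := L) hB (fun V hV f => by
      have h1 := hneg ⟨V, hV⟩ ((i ⟨V, hV⟩).hom ≫ f)
      rw [← cancel_epi (i ⟨V, hV⟩).hom, h1, comp_zero])
    (fun V hV => (i ⟨V, hV⟩).inv ≫ g ⟨V, hV⟩)
    (fun V' V hV' hV h => by
      have h1 := hg ⟨V', hV'⟩ ⟨V, hV⟩ h ((i ⟨V', hV'⟩).hom ≫ (cD h).app K ≫ (i ⟨V, hV⟩).inv) (by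
        rw [Category.assoc, Category.assoc, hi', cD_app_ε, hi])
      rw [← h1]
      simp)
  refine ⟨inv ((ε (sSup B)).app K) ≫ h, fun V => ?_, fun f hf => ?_⟩
  · rw [← hi, Category.assoc, ← cD_app_ε (le_sSup V.2), Category.assoc, IsIso.hom_inv_id_assoc,
      hh V.1 V.2, Iso.hom_inv_id_assoc]
  · rw [IsIso.eq_inv_comp]
    refine huniq _ fun V hV => ?_
    dsimp only
    rw [cD_app_ε_assoc, ← hi' ⟨V, hV⟩, Category.assoc, hf]

end Down

end Groth.Agent.Dual.H329.HomSheaf
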