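import Groth.Agent.Dual.H329.HomSheaf
import Groth.Agent.PerfC.MV2

/-!
# The Hom-sheaf property in `D(O_X)` in terms of restrictions

* `hneg_of_restrict`: negative `Hom`s over opens give negative `Hom`s out of `T U K`.
* `hom_ext_restrict`, `exists_hom_restrict`: morphisms `K|_{W i} ⟶ L|_{W i}` which agree on the
  overlaps glue to a unique morphism `K ⟶ L`.
* `exists_iso_restrict`: the same for isomorphisms.
-/

set_option autoImplicit false

universe u

open CategoryTheory CategoryTheory.Limits AlgebraicGeometry Opposite TopologicalSpace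

namespace Groth.Agent.Dual.H329.HomSheaf

open Groth.Agent.Dual.H329.EHom Groth.Agent.Dual.H329.CochSheaf
open Groth.Agent.Dual.H329.TV DerivedCategory Groth.Agent.PerfC.PcLocal
open Groth.Agent.PerfA.Restrict Groth.Agent.PerfC.Supp Groth.Agent.PerfC.MV
open Groth.Agent.PerfC.ExtZeroD

attribute [local instance] HasDerivedCategory.standard

variable {X : Scheme.{u}} {K L : DCoh.D X}

/-- Vanishing of `Hom(K|_U, L|_U[n])` gives the vanishing of `Hom(T_U K, L[n])`. -/
lemma hneg_of_restrict {U : X.Opens} {n : ℤ}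
    (h : ∀ g : (restrictD U.ι).obj K ⟶ ((restrictD U.ι).obj L)⟦n⟧, g = 0)
    (g : (T U).obj K ⟶ L⟦n⟧) : g = 0 := by
  refine hom_ext_of_supp (supp_T_subset U K) ?_
  rw [Functor.map_zero]
  have h1 := h (inv ((restrictD U.ι).map ((ε U).app K)) ≫ (restrictD U.ι).map g ≫
    ((restrictD U.ι).commShiftIso n).hom.app L)
  rw [← cancel_mono (((restrictD U.ι).commShiftIso n).hom.app L), zero_comp,
    ← cancel_epi (inv ((restrictD U.ι).map ((ε U).app K))), h1, comp_zero]

/-- The converse. -/
lemma restrict_of_hneg {U : X.Opens} {n : ℤ}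
    (h : ∀ g : (T U).obj K ⟶ L⟦n⟧, g = 0)
    (g : (restrictD U.ι).obj K ⟶ ((restrictD U.ι).obj L)⟦n⟧) : g = 0 := by
  obtain ⟨f, hf⟩ := (bijective_restrictD (L⟦n⟧) (supp_T_subset U K)).2
    ((restrictD U.ι).map ((ε U).app K) ≫ g ≫ ((restrictD U.ι).commShiftIso n).inv.app L)
  dsimp only at hf
  rw [h f, Functor.map_zero] at hf
  rw [← cancel_mono (((restrictD U.ι).commShiftIso n).inv.app L), zero_comp,
    ← cancel_epi ((restrictD U.ι).map ((ε U).app K)), comp_zero, ← hf]

/-- Restriction to two steps is injective on morphisms out of objects with small support. -/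
lemma hom_ext_of_supp₂ {U W : Scheme.{u}} (j : U ⟶ X) (w : W ⟶ U) [IsOpenImmersion j]
    [IsOpenImmersion w] {K L : DCoh.D X} (hK : ∀ n, supp K n ⊆ Set.range (w ≫ j)) (f g : K ⟶ L)
    (h : (restrictD w).map ((restrictD j).map f) = (restrictD w).map ((restrictD j).map g)) :
    f = g := by
  have hr : Set.range (w ≫ j) = j '' Set.range w := by
    rw [Scheme.Hom.comp_base, TopCat.coe_comp, Set.range_comp]
  refine (bijective_restrictD_map j _ _ ?_).1 ?_
  · intro n
    refine (hK n).trans ?_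
    rw [hr]
    exact Set.image_subset_range _ _
  · refine (bijective_restrictD_map w _ _ ?_).1 h
    intro n
    rw [supp_restrictD]
    refine (Set.preimage_mono (hK n)).trans ?_
    rw [hr, Set.preimage_image_eq _ j.isOpenEmbedding.injective]

section Cover

variable {ι : Type u} (W : ι → X.Opens) (hW : ⨆ i, W i = ⊤)
  (hneg : ∀ i (U : X.Opens), U ≤ W i →
    ∀ g : (restrictD U.ι).obj K ⟶ ((restrictD U.ι).obj L)⟦(-1 : ℤ)⟧, g = 0)

include hW hneg in
/-- Uniqueness. -/
theorem hom_ext_restrict (φ ψ : K ⟶ L)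
    (h : ∀ i, (restrictD (W i).ι).map φ = (restrictD (W i).ι).map ψ) : φ = ψ := by
  have hε : IsIso ((ε (⊤ : X.Opens)).app K) := isIso_ε_app fun n => Set.subset_univ _
  rw [← cancel_epi ((ε (⊤ : X.Opens)).app K)]
  refine hom_ext W (fun i U hU => hneg_of_restrict (hneg i U hU)) (V := ⊤) (fun i => le_top)
    hW.ge _ _ fun i => ?_
  rw [cD_app_ε_assoc, cD_app_ε_assoc]
  refine hom_ext_of_supp (supp_T_subset (W i) K) ?_
  rw [Functor.map_comp, Functor.map_comp, h]

/-- The square of restrictions to an overlap. -/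
lemma overlap (V V' : X.Opens) : X.homOfLE (inf_le_left : V ⊓ V' ≤ V) ≫ V.ι =
    X.homOfLE (inf_le_right : V ⊓ V' ≤ V') ≫ V'.ι := by
  rw [Scheme.homOfLE_ι, Scheme.homOfLE_ι]

include hW hneg in
/-- Existence. -/
theorem exists_hom_restrict
    (f : ∀ i, (restrictD (W i).ι).obj K ⟶ (restrictD (W i).ι).obj L)
    (hf : ∀ i j, Agree (overlap (W i) (W j)) (f i) (f j)) :
    ∃ φ : K ⟶ L, ∀ i, (restrictD (W i).ι).map φ = f i := by
  choose t ht using fun i => (bijective_restrictD L (supp_T_subset (W i) K)).2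
    ((restrictD (W i).ι).map ((ε (W i)).app K) ≫ f i)
  dsimp only at ht
  have hε : IsIso ((ε (⊤ : X.Opens)).app K) := isIso_ε_app fun n => Set.subset_univ _
  obtain ⟨γ, hγ⟩ := exists_hom W (fun i U hU => hneg_of_restrict (hneg i U hU)) (V := ⊤)
    (fun i => le_top) hW.ge t (fun i j => by
      refine hom_ext_of_supp₂ (W i).ι (X.homOfLE (inf_le_left : W i ⊓ W j ≤ W i)) ?_ _ _ ?_
      · intro n
        rw [Scheme.homOfLE_ι, Scheme.Opens.range_ι]
        exact supp_T_subset _ K n
      · have h1 := hf i j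
        rw [Agree] at h1
        have h2 : ∀ (k : ι) (h : W i ⊓ W j ≤ W k),
            (restrictD (W k).ι).map ((cD h).app K ≫ t k) =
              (restrictD (W k).ι).map ((ε (W i ⊓ W j)).app K) ≫ f k := fun k h => by
          rw [Functor.map_comp, ht, ← Functor.map_comp_assoc, cD_app_ε]
        have h3 := square_naturality (overlap (W i) (W j)) ((ε (W i ⊓ W j)).app K)
        dsimp only [Functor.id_obj] at h3
        rw [← cancel_mono ((restrictDSquare (overlap (W i) (W j))).hom.app L),
          square_naturality (overlap (W i) (W j)) ((cD (inf_le_right : W i ⊓ W j ≤ W j)).app K ≫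
            t j), h2 i, h2 j, Functor.map_comp, Functor.map_comp, Category.assoc]
        erw [h1]
        rw [reassoc_of% h3])
  refine ⟨inv ((ε (⊤ : X.Opens)).app K) ≫ γ, fun i => ?_⟩
  rw [← cancel_epi ((restrictD (W i).ι).map ((ε (W i)).app K)), ← ht, ← hγ,
    ← Functor.map_comp, ← cD_app_ε (le_top : W i ≤ ⊤), Category.assoc, IsIso.hom_inv_id_assoc]

include hW hneg in
/-- Gluing of isomorphisms. -/
theorem exists_iso_restrict
    (f : ∀ i, (restrictD (W i).ι).obj K ≅ (restrictD (W i).ι).obj L)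
    (hf : ∀ i j, Agree (overlap (W i) (W j)) (f i).hom (f j).hom) :
    ∃ φ : K ≅ L, ∀ i, (restrictD (W i).ι).map φ.hom = (f i).hom := by
  obtain ⟨φ, hφ⟩ := exists_hom_restrict W hW hneg (fun i => (f i).hom) hf
  have : IsIso φ := isIso_of_restrictD_opens φ fun x => by
    have hx : x ∈ ⨆ i, W i := hW ▸ trivial
    obtain ⟨i, hi⟩ := Opens.mem_iSup.1 hx
    exact ⟨W i, hi, by rw [hφ]; infer_instance⟩
  exact ⟨asIso φ, hφ⟩

end Cover

end Groth.Agent.Dual.H329.HomSheaf
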