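import Groth.Agent.Dual.H329.HomSheaf2
import Groth.Agent.LoccohB.Detect531
import Groth.Agent.LoccohB.TensShriek
import Groth.Agent.Dcoh.ProjShriekD
import Groth.Agent.PerfC.RHomPc175

/-!
# Negative `Hom`s on a basis of opens

If `Hom(T_V K, L[n]) = 0` for all `n < 0` and all `V` in a basis of opens then this holds for all
opens `V` (`van`). Consequently the Hom-sheaf property holds for bases of opens (`HS_basis`,
`HSfree_basis`).
-/

set_option autoImplicit false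

universe u

open CategoryTheory CategoryTheory.Limits AlgebraicGeometry Opposite TopologicalSpace
open MonoidalCategory

namespace Groth.Agent.Dual.H329.Van

open Groth.Agent.Dual.H329.TV DerivedCategory Groth.Agent.PerfC.PcLocal
open Groth.Agent.PerfA Groth.Agent.PerfA.Restrict Groth.Agent.PerfC.Supp
open Groth.Agent.PerfC.ExtZeroD Groth.Agent.PerfA.Hyp1 Groth.Agent.PerfC.DTens
open Groth.Agent.PerfC.RHomD Groth.Agent.LoccohB.TensShriek
open scoped Groth.Agent.Dcoh.MonCat Groth.Agent.Dcoh.ModD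

attribute [local instance] HasDerivedCategory.standard

variable {X : Scheme.{u}}

/-- `O_X[-m]`. -/
noncomputable abbrev S (X : Scheme.{u}) (m : ℤ) : DCoh.D X :=
  (DerivedCategory.singleFunctor X.Modules m).obj (Coh.structureModule X)

/-- `j_! O_V [-m]` is `T V (O_X[-m])`. -/
noncomputable def isoP (m : ℤ) (V : X.Opens) : P m V ≅ (T V).obj (S X m) :=
  (DerivedCategory.singleFunctor X.Modules m).mapIso (OUTF.iso V) ≪≫
    (((Groth.Agent.PerfC.ExtZero.TF V).mapDerivedCategorySingleFunctor m).app _).symm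

/-- `T V M` is an extension by zero. -/
noncomputable def isoShriek (V : X.Opens) (M : DCoh.D X) :
    (shriekD V.ι).obj ((restrictD V.ι).obj ((T V).obj M)) ≅ (T V).obj M :=
  haveI := isIso_counit_app V.ι ((T V).obj M) (supp_T_subset_range V M)
  asIso ((adjunction V.ι).counit.app ((T V).obj M))

variable (K : DCoh.D X)

/-- `- ⊗ᴸ K`. -/
noncomputable def F : DCoh.D X ⥤ DCoh.D X := (LTX X).flip.obj K

/-- `- ⊗ᴸ K` is the monoidal product with `K`. -/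
noncomputable def flipF : F K ≅ tensorRight K := Groth.Agent.PerfC.RHomPc175.flipIso K

/-- `- ⊗ᴸ K` in terms of `ltR`. -/
noncomputable def fIso : F K ≅ ltR (Q.objPreimage K) :=
  (LTX X).flip.mapIso (Q.objObjPreimageIso K).symm

/-- `(T V M) ⊗ K = T V (M ⊗ K)`. -/
lemma exists_F_T (V : X.Opens) (M : DCoh.D X) :
    Nonempty ((F K).obj ((T V).obj M) ≅ (T V).obj ((F K).obj M)) := by
  refine ⟨isoOfSupp ((F K).map ((ε V).app M)) (fun n => ?_) ?_⟩
  · rw [supp_congr ((F K).mapIso (isoShriek V M)).symm,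
      supp_congr ((flipF K).app _), ← Scheme.Opens.range_ι V]
    exact Groth.Agent.Dcoh.ProjShriekD.supp_tensor_subset_range V.ι _ K n
  · exact (NatIso.isIso_map_iff (Functor.isoWhiskerRight (fIso K) (restrictD V.ι))
      ((ε V).app M)).2 (isIso_restrictD_tensor V.ι (Q.objPreimage K) ((ε V).app M) inferInstance)

/-- `O_X ⊗ K = K`. -/
noncomputable def isoFS : (F K).obj (S X 0) ≅ K :=
  (flipF K).app _ ≪≫ ((Groth.Agent.Dcoh.DualX.unitIso X) ⊗ᵢ Iso.refl K) ≪≫ λ_ K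

/-- `O_X[-m] ⊗ K = K[-m]`. -/
lemma exists_FS (m : ℤ) : Nonempty ((F K).obj (S X m) ≅ K⟦-m⟧) := by
  obtain ⟨_, _⟩ := isTriang_LTX_flip_obj K
  have e : (S X 0)⟦-m⟧ ≅ S X m :=
    ((DerivedCategory.singleFunctors X.Modules).shiftIso (-m) m 0 (by lia)).app _
  exact ⟨(F K).mapIso e.symm ≪≫ ((LTX X).flip.obj K |>.commShiftIso (-m)).app (S X 0) ≪≫
    (shiftFunctor (DCoh.D X) (-m)).mapIso (isoFS K)⟩

/-- Negative shifts can be moved to the other side. -/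
noncomputable def shiftEquivHom (A L : DCoh.D X) (m : ℤ) : (A⟦-m⟧ ⟶ L) ≃ (A ⟶ L⟦m⟧) :=
  (Functor.FullyFaithful.ofFullyFaithful (shiftFunctor (DCoh.D X) m)).homEquiv.trans
    (Iso.homCongr ((shiftFunctorCompIsoId (DCoh.D X) (-m) m (by lia)).app A) (Iso.refl _))

/-- Hypercohomology of `RHom(K, L)`. -/
lemma nonempty_equiv (V : X.Opens) (m : ℤ) (L : DCoh.D X) :
    Nonempty ((P m V ⟶ (RH K).obj L) ≃ ((T V).obj K ⟶ L⟦m⟧)) := by
  obtain ⟨e1⟩ := exists_F_T K V (S X m)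
  obtain ⟨e2⟩ := exists_FS K m
  exact ⟨((isoP m V).homCongr (Iso.refl _)).trans (((rhAdj K).homEquiv _ _).symm.trans
    (((e1 ≪≫ (T V).mapIso e2 ≪≫ ((T V).commShiftIso (-m)).app K).homCongr (Iso.refl L)).trans
      (shiftEquivHom _ _ m)))⟩

lemma hom_zero_iff (V : X.Opens) (m : ℤ) (L : DCoh.D X) :
    (∀ g : P m V ⟶ (RH K).obj L, g = 0) ↔ ∀ g : (T V).obj K ⟶ L⟦m⟧, g = 0 := by
  obtain ⟨e⟩ := nonempty_equiv K V m L
  constructor
  · intro h g
    have h1 : e.symm g = e.symm 0 := (h _).trans (h _).symm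
    exact e.symm.injective h1
  · intro h g
    have h1 : e g = e 0 := (h _).trans (h _).symm
    exact e.injective h1

section Basis

variable (U : X.Opens) (B : X.Opens → Prop)
  (hB : ∀ (x : X) (V : X.Opens), x ∈ V → V ≤ U → ∃ W, B W ∧ x ∈ W ∧ W ≤ V)

include hB in
/-- Vanishing of negative hypercohomology on a basis of opens of `U` implies the vanishing of the
cohomology sheaves on `U`. -/
lemma supp_of_basis (N : DCoh.D X) (m : ℤ) (h : ∀ W, B W → ∀ g : P m W ⟶ N, g = 0) (x : X)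
    (hx : x ∈ U) : x ∉ supp N m := by
  intro hx'
  refine (Groth.Agent.CohqB.DevSupport.not_mem_support_iff_isZero (DCoh.HD N m) x).2 ?_ hx'
  rw [← Groth.Agent.CohqB.DevSupport.subsingleton_iff_isZero]
  refine ⟨fun a b => ?_⟩
  have key : ∀ a : (DCoh.HD N m).presheaf.stalk x, a = 0 := by
    intro a
    obtain ⟨V, hxV, s, rfl⟩ := TopCat.Presheaf.exists_germ_eq (DCoh.HD N m).presheaf a
    obtain ⟨V', hV', ψ, hxV', hψ⟩ := exists_local_toHD_eq (K := N) (m := m) s x hxV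
    obtain ⟨W, hW, hxW, hWV⟩ := hB x (V' ⊓ U) ⟨hxV', hx⟩ inf_le_right
    have h1 : toHD (res (hWV.trans inf_le_left) ψ) = 0 := by
      rw [h W hW (res (hWV.trans inf_le_left) ψ), toHD_zero]
    rw [toHD_res, hψ] at h1
    rw [← TopCat.Presheaf.germ_res_apply (DCoh.HD N m).presheaf (homOfLE hV') x hxV' s,
      ← TopCat.Presheaf.germ_res_apply (DCoh.HD N m).presheaf
        (homOfLE (hWV.trans inf_le_left : W ≤ V')) x hxW, h1, map_zero]
  rw [key a, key b]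

/-- `K` is in `D^{≥ a}` on `U`. -/
lemma isGE_T (N : DCoh.D X) (a : ℤ) (h : ∀ m < a, ∀ x ∈ U, x ∉ supp N m) :
    ((T U).obj N).IsGE a := by
  rw [DerivedCategory.isGE_iff]
  intro m hm
  refine (supp_eq_empty_iff _ _).1 ?_
  rw [supp_T, Set.eq_empty_iff_forall_notMem]
  rintro x ⟨h1, h2⟩
  exact h m hm x h2 h1

include hB in
/-- `RHom(K, L)` is in `D^{≥ 0}` on `U` if the negative `Hom`s vanish on a basis of opens. -/
lemma isGE_RH {K L : DCoh.D X}
    (h : ∀ V, B V → ∀ n < (0 : ℤ), ∀ g : (T V).obj K ⟶ L⟦n⟧, g = 0) :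
    ((T U).obj ((RH K).obj L)).IsGE 0 :=
  isGE_T U _ 0 fun m hm => supp_of_basis U B hB _ m fun W hW =>
    (hom_zero_iff K W m L).2 (h W hW m hm)

include hB in
/-- If the negative `Hom`s out of `T V K` vanish for `V` in a basis of opens of `U`, then for
all `V ≤ U`. -/
theorem van_rel {K L : DCoh.D X}
    (h : ∀ V, B V → ∀ n < (0 : ℤ), ∀ g : (T V).obj K ⟶ L⟦n⟧, g = 0) (V : X.Opens) (hV : V ≤ U)
    (n : ℤ) (hn : n < 0) (g : (T V).obj K ⟶ L⟦n⟧) : g = 0 := by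
  have hN := isGE_RH U B hB h
  refine (hom_zero_iff K V n L).1 (fun f => ?_) g
  have hP : ∀ m, supp (P n V) m ⊆ (U : Set X) := fun m => by
    rw [supp_congr (isoP n V)]
    exact (supp_T_subset V _ m).trans hV
  obtain ⟨f', rfl⟩ := (bijective_comp_ε ((RH K).obj L) hP).2 f
  dsimp only
  rw [TStructure.t.zero f' n 0 hn, zero_comp]

include hB in
/-- `T`-free form of `van_rel`. -/
theorem van_rel_free {K L : DCoh.D X}
    (h : ∀ V, B V → ∀ (A : DCoh.D X) (a : A ⟶ K), (∀ n, supp A n ⊆ (V : Set X)) →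
      IsIso ((restrictD V.ι).map a) → ∀ n < (0 : ℤ), ∀ g : A ⟶ L⟦n⟧, g = 0) (V : X.Opens)
    (hV : V ≤ U) {A : DCoh.D X} (a : A ⟶ K) (hA : ∀ n, supp A n ⊆ (V : Set X))
    (ha : IsIso ((restrictD V.ι).map a)) (n : ℤ) (hn : n < 0) (g : A ⟶ L⟦n⟧) : g = 0 := by
  have h1 := van_rel U B hB (K := K) (L := L) (fun V hV n hn g =>
    h V hV _ ((ε V).app K) (supp_T_subset V K) inferInstance n hn g) V hV n hn
    ((isoOfSupp a hA ha).inv ≫ g)
  rw [← cancel_epi (isoOfSupp a hA ha).inv, h1, comp_zero]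

end Basis

section Basis

variable (B : X.Opens → Prop)
  (hB : ∀ (x : X) (V : X.Opens), x ∈ V → ∃ W, B W ∧ x ∈ W ∧ W ≤ V)

include hB in
/-- If the negative `Hom`s out of `T V K` vanish for `V` in a basis of opens, then for all `V`. -/
theorem van {K L : DCoh.D X}
    (h : ∀ V, B V → ∀ n < (0 : ℤ), ∀ g : (T V).obj K ⟶ L⟦n⟧, g = 0) (V : X.Opens) (n : ℤ)
    (hn : n < 0) (g : (T V).obj K ⟶ L⟦n⟧) : g = 0 :=
  van_rel ⊤ B (fun x V hx _ => hB x V hx) h V le_top n hn g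

include hB in
/-- `T`-free form of `van`. -/
theorem van_free {K L : DCoh.D X}
    (h : ∀ V, B V → ∀ (A : DCoh.D X) (a : A ⟶ K), (∀ n, supp A n ⊆ (V : Set X)) →
      IsIso ((restrictD V.ι).map a) → ∀ n < (0 : ℤ), ∀ g : A ⟶ L⟦n⟧, g = 0) (V : X.Opens)
    {A : DCoh.D X} (a : A ⟶ K) (hA : ∀ n, supp A n ⊆ (V : Set X))
    (ha : IsIso ((restrictD V.ι).map a)) (n : ℤ) (hn : n < 0) (g : A ⟶ L⟦n⟧) : g = 0 := by
  have h1 := van B hB (K := K) (L := L) (fun V hV n hn g =>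
    h V hV _ ((ε V).app K) (supp_T_subset V K) inferInstance n hn g) V n hn
    ((isoOfSupp a hA ha).inv ≫ g)
  rw [← cancel_epi (isoOfSupp a hA ha).inv, h1, comp_zero]

include hB in
/-- Restriction form of `van`. -/
theorem van_restrict {K L : DCoh.D X}
    (h : ∀ V, B V → ∀ n < (0 : ℤ), ∀ g : (restrictD V.ι).obj K ⟶ ((restrictD V.ι).obj L)⟦n⟧,
      g = 0) (V : X.Opens) (n : ℤ) (hn : n < 0)
    (g : (restrictD V.ι).obj K ⟶ ((restrictD V.ι).obj L)⟦n⟧) : g = 0 :=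
  HomSheaf.restrict_of_hneg (van B hB
    (fun V hV n hn g => HomSheaf.hneg_of_restrict (h V hV n hn) g) V n hn) g

include hB in
/-- The Hom-sheaf property for a basis of opens. -/
theorem HS_basis {K L : DCoh.D X}
    (h : ∀ V, B V → ∀ n < (0 : ℤ), ∀ g : (T V).obj K ⟶ L⟦n⟧, g = 0)
    (g : ∀ V, B V → ((T V).obj K ⟶ L))
    (hg : ∀ (V' V : X.Opens) (hV' : B V') (hV : B V) (h : V' ≤ V),
      (cD h).app K ≫ g V hV = g V' hV') :
    ∃! φ : K ⟶ L, ∀ V (hV : B V), (ε V).app K ≫ φ = g V hV := by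
  have hv := van B hB h
  have hε : IsIso ((ε (⊤ : X.Opens)).app K) := isIso_ε_app fun n => Set.subset_univ _
  have hcov : ∀ V : X.Opens, V ≤ ⨆ W : {W : X.Opens // B W ∧ W ≤ V}, W.1 := fun V x hx => by
    obtain ⟨W, hW, hxW, hWV⟩ := hB x V hx
    exact Opens.mem_iSup.2 ⟨⟨W, hW, hWV⟩, hxW⟩
  obtain ⟨γ, hγ⟩ := HomSheaf.exists_hom (K := K) (L := L) (fun V : {W : X.Opens // B W} => V.1)
    (fun V U _ g => hv U (-1) (by lia) g) (V := ⊤) (fun V => le_top)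
    (fun x hx => by
      obtain ⟨W, hW, hxW, -⟩ := hB x ⊤ hx
      exact Opens.mem_iSup.2 ⟨⟨W, hW⟩, hxW⟩) (fun V => g V.1 V.2) (fun V V' => by
      refine HomSheaf.hom_ext (fun W : {W : X.Opens // B W ∧ W ≤ V.1 ⊓ V'.1} => W.1)
        (fun V U _ g => hv U (-1) (by lia) g) (fun W => W.2.2) (hcov _) _ _ fun W => ?_
      rw [cD_app_comp_assoc, cD_app_comp_assoc, hg _ _ W.2.1 V.2, hg _ _ W.2.1 V'.2])
  refine ⟨inv ((ε (⊤ : X.Opens)).app K) ≫ γ, fun V hV => ?_, fun φ hφ => ?_⟩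
  · rw [← cD_app_ε (le_top : V ≤ ⊤), Category.assoc, IsIso.hom_inv_id_assoc]
    exact hγ ⟨V, hV⟩
  · rw [IsIso.eq_inv_comp]
    refine HomSheaf.hom_ext (fun V : {W : X.Opens // B W} => V.1)
      (fun V U _ g => hv U (-1) (by lia) g) (V := ⊤) (fun V => le_top)
      (fun x hx => by
        obtain ⟨W, hW, hxW, -⟩ := hB x ⊤ hx
        exact Opens.mem_iSup.2 ⟨⟨W, hW⟩, hxW⟩) _ _ fun V => ?_
    rw [cD_app_ε_assoc, hφ V.1 V.2]
    exact (hγ V).symm

include hB in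
/-- The Hom-sheaf property for a basis of opens, without reference to `T`. -/
theorem HSfree_basis {K L : DCoh.D X} (A : {V : X.Opens // B V} → DCoh.D X)
    (a : ∀ V, A V ⟶ K) (hA : ∀ V n, supp (A V) n ⊆ (V.1 : Set X))
    (ha : ∀ V, IsIso ((restrictD V.1.ι).map (a V)))
    (hneg : ∀ V, ∀ n < (0 : ℤ), ∀ g : A V ⟶ L⟦n⟧, g = 0)
    (g : ∀ V, A V ⟶ L)
    (hg : ∀ V' V, V'.1 ≤ V.1 → ∀ u : A V' ⟶ A V, u ≫ a V = a V' → u ≫ g V = g V') :
    ∃! φ : K ⟶ L, ∀ V, a V ≫ φ = g V := by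
  let i : ∀ V, A V ≅ (T V.1).obj K := fun V => isoOfSupp (a V) (hA V) (ha V)
  have hi : ∀ V, (i V).hom ≫ (ε V.1).app K = a V := fun V => isoOfSupp_hom_ε _ _ _
  have hi' : ∀ V, (i V).inv ≫ a V = (ε V.1).app K := fun V => isoOfSupp_inv_comp _ _ _
  obtain ⟨h, hh, huniq⟩ := HS_basis B hB (K := K) (L := L) (fun V hV n hn f => by
      have h1 := hneg ⟨V, hV⟩ n hn ((i ⟨V, hV⟩).hom ≫ f)
      rw [← cancel_epi (i ⟨V, hV⟩).hom, h1, comp_zero])
    (fun V hV => (i ⟨V, hV⟩).inv ≫ g ⟨V, hV⟩)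
    (fun V' V hV' hV h => by
      have h1 := hg ⟨V', hV'⟩ ⟨V, hV⟩ h ((i ⟨V', hV'⟩).hom ≫ (cD h).app K ≫ (i ⟨V, hV⟩).inv) (by
        rw [Category.assoc, Category.assoc, hi', cD_app_ε, hi])
      rw [← h1]
      simp)
  refine ⟨h, fun V => ?_, fun f hf => huniq _ fun V hV => ?_⟩
  · rw [← hi, Category.assoc, hh V.1 V.2, Iso.hom_inv_id_assoc]
  · rw [← hi' ⟨V, hV⟩, Category.assoc, hf]

end Basis

end Groth.Agent.Dual.H329.Van
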